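import Mathlib
import Cfsg.Agent.Helper25.BlockPairs12

/-!
# Shared block-theory library (helper25), part 26: Brauer pairs inside a subgroup

For subgroups `P ≤ H` of `G` with `C_G(P) ≤ H`, the centralizer of `P` in `H` is `C_G(P)`; this
file transports sets of characters along that identification.

* `subCent`, `subChar`, `subBlock`: the identification and the induced maps.
* `isBrauerPairOf_sub`: for `(Q, f) ◁ (P, e)` with `P ≤ C_G(Q)`, the pair `(P, e)` is a Brauer
  pair of the block `f` of `C_G(Q)`.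
* `smul_subBlock`: compatibility with conjugation.
-/

set_option autoImplicit false

namespace Cfsg.Agent.Helper25

open Cfsg
open scoped ComplexConjugate Pointwise

universe u

variable {G : Type u} [Group G] {p : ℕ} {M : Ideal AlgInt}

section Sub

variable (H P : Subgroup G)

/-- For `P ≤ H` with `C_G(P) ≤ H`: the centralizer of `P` in `H` is `C_G(P)`. -/
def subCent (hPH : P ≤ H) (hCH : Subgroup.centralizer (P : Set G) ≤ H) :
    ↥(Subgroup.centralizer ((P.subgroupOf H : Subgroup H) : Set H)) ≃*
      ↥(Subgroup.centralizer (P : Set G)) where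
  toFun x := ⟨((x : H) : G), by
    rw [Subgroup.mem_centralizer_iff]
    intro u hu
    have h1 := Subgroup.mem_centralizer_iff.mp x.2 ⟨u, hPH hu⟩ (Subgroup.mem_subgroupOf.mpr hu)
    exact congrArg Subtype.val h1⟩
  invFun y := ⟨⟨(y : G), hCH y.2⟩, by
    rw [Subgroup.mem_centralizer_iff]
    intro u hu
    apply Subtype.ext
    exact Subgroup.mem_centralizer_iff.mp y.2 (u : G) (Subgroup.mem_subgroupOf.mp hu)⟩
  left_inv x := rfl
  right_inv y := rfl
  map_mul' a b := rfl

theorem subCent_apply (hPH : P ≤ H) (hCH : Subgroup.centralizer (P : Set G) ≤ H)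
    (x : Subgroup.centralizer ((P.subgroupOf H : Subgroup H) : Set H)) :
    ((subCent H P hPH hCH x : Subgroup.centralizer (P : Set G)) : G) = ((x : H) : G) := rfl

/-- Transport of an irreducible character of `C_G(P)` to the centralizer of `P` in `H`. -/
def subChar (hPH : P ≤ H) (hCH : Subgroup.centralizer (P : Set G) ≤ H)
    (ξ : IrrCharacter (Subgroup.centralizer (P : Set G))) :
    IrrCharacter (Subgroup.centralizer ((P.subgroupOf H : Subgroup H) : Set H)) :=
  irrEquiv (subCent H P hPH hCH) ξ

/-- The inverse of `subChar`. -/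
def subCharInv (hPH : P ≤ H) (hCH : Subgroup.centralizer (P : Set G) ≤ H)
    (ξ : IrrCharacter (Subgroup.centralizer ((P.subgroupOf H : Subgroup H) : Set H))) :
    IrrCharacter (Subgroup.centralizer (P : Set G)) :=
  irrEquiv (subCent H P hPH hCH).symm ξ

theorem subChar_apply (hPH : P ≤ H) (hCH : Subgroup.centralizer (P : Set G) ≤ H)
    (ξ : IrrCharacter (Subgroup.centralizer (P : Set G)))
    (c : Subgroup.centralizer ((P.subgroupOf H : Subgroup H) : Set H)) :
    (subChar H P hPH hCH ξ).1 c = ξ.1 (subCent H P hPH hCH c) := rfl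

theorem subCharInv_apply (hPH : P ≤ H) (hCH : Subgroup.centralizer (P : Set G) ≤ H)
    (ξ : IrrCharacter (Subgroup.centralizer ((P.subgroupOf H : Subgroup H) : Set H)))
    (c : Subgroup.centralizer (P : Set G)) :
    (subCharInv H P hPH hCH ξ).1 c = ξ.1 ((subCent H P hPH hCH).symm c) := rfl

theorem subCharInv_subChar (hPH : P ≤ H) (hCH : Subgroup.centralizer (P : Set G) ≤ H)
    (ξ : IrrCharacter (Subgroup.centralizer (P : Set G))) :
    subCharInv H P hPH hCH (subChar H P hPH hCH ξ) = ξ := by
  apply Subtype.ext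
  funext c
  rw [subCharInv_apply, subChar_apply, MulEquiv.apply_symm_apply]

theorem subChar_subCharInv (hPH : P ≤ H) (hCH : Subgroup.centralizer (P : Set G) ≤ H)
    (ξ : IrrCharacter (Subgroup.centralizer ((P.subgroupOf H : Subgroup H) : Set H))) :
    subChar H P hPH hCH (subCharInv H P hPH hCH ξ) = ξ := by
  apply Subtype.ext
  funext c
  rw [subChar_apply, subCharInv_apply, MulEquiv.symm_apply_apply]

theorem subChar_injective (hPH : P ≤ H) (hCH : Subgroup.centralizer (P : Set G) ≤ H) :
    Function.Injective (subChar H P hPH hCH) :=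
  Function.LeftInverse.injective (subCharInv_subChar H P hPH hCH)

/-- Transport of a set of irreducible characters of `C_G(P)` to the centralizer of `P` in `H`. -/
def subBlock (hPH : P ≤ H) (hCH : Subgroup.centralizer (P : Set G) ≤ H)
    (e : Set (IrrCharacter (Subgroup.centralizer (P : Set G)))) :
    Set (IrrCharacter (Subgroup.centralizer ((P.subgroupOf H : Subgroup H) : Set H))) :=
  subChar H P hPH hCH '' e

theorem subBlock_injective (hPH : P ≤ H) (hCH : Subgroup.centralizer (P : Set G) ≤ H) :
    Function.Injective (subBlock H P hPH hCH) :=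
  Set.image_injective.mpr (subChar_injective H P hPH hCH)

theorem sameBlock_subChar_iff (hPH : P ≤ H) (hCH : Subgroup.centralizer (P : Set G) ≤ H)
    (ξ ψ : IrrCharacter (Subgroup.centralizer (P : Set G))) :
    SameBlock M (subChar H P hPH hCH ξ).1 (subChar H P hPH hCH ψ).1 ↔ SameBlock M ξ.1 ψ.1 := by
  constructor
  · intro h
    have h1 := sameBlock_irrComp_equiv (M := M) (subCent H P hPH hCH).symm _ _ h
    have e1 : irrEquiv (subCent H P hPH hCH).symm (subChar H P hPH hCH ξ) = ξ :=
      subCharInv_subChar H P hPH hCH ξ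
    have e2 : irrEquiv (subCent H P hPH hCH).symm (subChar H P hPH hCH ψ) = ψ :=
      subCharInv_subChar H P hPH hCH ψ
    rw [e1, e2] at h1
    exact h1
  · intro h
    exact sameBlock_irrComp_equiv (M := M) (subCent H P hPH hCH) _ _ h

theorem subBlock_blockOf (hPH : P ≤ H) (hCH : Subgroup.centralizer (P : Set G) ≤ H)
    (ξ : IrrCharacter (Subgroup.centralizer (P : Set G))) :
    subBlock H P hPH hCH (blockOf M ξ.1) = blockOf M (subChar H P hPH hCH ξ).1 := by
  ext ψ'
  constructor
  · rintro ⟨ψ, hψ, rfl⟩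
    exact (sameBlock_subChar_iff H P hPH hCH ξ ψ).mpr hψ
  · intro h
    refine ⟨subCharInv H P hPH hCH ψ', ?_, subChar_subCharInv H P hPH hCH ψ'⟩
    have h1 : SameBlock M (subChar H P hPH hCH ξ).1
        (subChar H P hPH hCH (subCharInv H P hPH hCH ψ')).1 := by
      rw [subChar_subCharInv]
      exact h
    exact (sameBlock_subChar_iff H P hPH hCH ξ _).mp h1

theorem isPBlock_subBlock (hPH : P ≤ H) (hCH : Subgroup.centralizer (P : Set G) ≤ H)
    {e : Set (IrrCharacter (Subgroup.centralizer (P : Set G)))} (he : IsPBlock M e) :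
    IsPBlock M (subBlock H P hPH hCH e) := by
  obtain ⟨ξ, rfl⟩ := he
  exact ⟨subChar H P hPH hCH ξ, subBlock_blockOf H P hPH hCH ξ⟩

theorem brauerOmega_subChar (hPH : P ≤ H) (hCH : Subgroup.centralizer (P : Set G) ≤ H)
    (β : H → ℂ) (β' : G → ℂ) (h : ∀ k : H, β' (k : G) = β k)
    (ξ : IrrCharacter (Subgroup.centralizer (P : Set G))) :
    brauerOmega (P.subgroupOf H) β (subChar H P hPH hCH ξ).1 = brauerOmega P β' ξ.1 := by
  unfold brauerOmega
  rw [← finsum_comp_equiv (subCent H P hPH hCH).toEquiv]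
  apply finsum_congr
  intro c
  rw [subChar_apply, subChar_apply, map_one]
  have e : β' (((subCent H P hPH hCH).toEquiv c : Subgroup.centralizer (P : Set G)) : G)
      = β (c : H) := h (c : H)
  rw [e]
  rfl

/-- For `(Q, f) ◁ (P, e)` with `P ≤ C_G(Q)`, the pair `(P, e)`, read inside `C_G(Q)`, is a Brauer
pair of the block `f` of `C_G(Q)`. -/
theorem isBrauerPairOf_sub (Q : Subgroup G) (hPH : P ≤ Subgroup.centralizer (Q : Set G))
    (hCH : Subgroup.centralizer (P : Set G) ≤ Subgroup.centralizer (Q : Set G))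
    {e : Set (IrrCharacter (Subgroup.centralizer (P : Set G)))}
    {f : Set (IrrCharacter (Subgroup.centralizer (Q : Set G)))}
    (hns : IsNormalSubpair p M Q f P e) :
    IsBrauerPairOf p M f (P.subgroupOf (Subgroup.centralizer (Q : Set G)))
      (subBlock (Subgroup.centralizer (Q : Set G)) P hPH hCH e) := by
  classical
  obtain ⟨hQf, hPe, -, -, -, hω⟩ := hns
  refine ⟨⟨hPe.1.comap_subtype, isPBlock_subBlock _ P hPH hCH hPe.2⟩, hQf.2, ?_⟩
  rintro _ ⟨ξ, hξ, rfl⟩
  rw [brauerOmega_subChar (Subgroup.centralizer (Q : Set G)) P hPH hCH (blockCoeff f)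
    (subgroupBlockCoeff (Subgroup.centralizer (Q : Set G)) f) (fun k => by
      unfold subgroupBlockCoeff
      rw [dif_pos k.2])]
  exact hω ξ hξ

/-- Compatibility of `subBlock` with the conjugation actions. -/
theorem smul_subBlock (hPH : P ≤ H) (hCH : Subgroup.centralizer (P : Set G) ≤ H)
    (e : Set (IrrCharacter (Subgroup.centralizer (P : Set G))))
    (n : Subgroup.normalizer
      ((Subgroup.centralizer ((P.subgroupOf H : Subgroup H) : Set H) : Subgroup H) : Set H))
    (hn : ((n : H) : G) ∈ Subgroup.normalizer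
      ((Subgroup.centralizer (P : Set G) : Subgroup G) : Set G)) :
    n • subBlock H P hPH hCH e
      = subBlock H P hPH hCH ((⟨((n : H) : G), hn⟩ : Subgroup.normalizer
        ((Subgroup.centralizer (P : Set G) : Subgroup G) : Set G)) • e) := by
  have key : ∀ ξ : IrrCharacter (Subgroup.centralizer (P : Set G)),
      n • subChar H P hPH hCH ξ = subChar H P hPH hCH ((⟨((n : H) : G), hn⟩ :
        Subgroup.normalizer ((Subgroup.centralizer (P : Set G) : Subgroup G) : Set G)) • ξ) := by
    intro ξ
    apply Subtype.ext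
    funext c
    rw [irr_smul_apply, subChar_apply, subChar_apply, irr_smul_apply]
    congr 1
  ext ψ
  constructor
  · rintro ⟨ψ₀, ⟨ξ, hξ, rfl⟩, rfl⟩
    exact ⟨_, Set.smul_mem_smul_set hξ, (key ξ).symm⟩
  · rintro ⟨ξ₁, ⟨ξ, hξ, rfl⟩, rfl⟩
    exact ⟨_, ⟨ξ, hξ, rfl⟩, key ξ⟩

end Sub

end Cfsg.Agent.Helper25
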