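import Mathlib
import Cfsg.Agent.Helper25.BlockPairs13

/-!
# Shared block-theory library (helper25), part 27: fusion above a central subpair

* `isMaximal_of_card`: a Brauer pair of `B` whose subgroup has the order of a defect group is
  maximal.
* `conjIdx_eq_self`, `conjIdx_eq_smul`: conjugating a pair by an element of its normalizer.
* `card_eq_of_le_centralizer`, `isDefectGroup_sub`: for `(Q, f) ≤ (P, e)` maximal with
  `P ≤ C_G(Q)`, the group `P` is a defect group of `f`.
* `exists_mul_mem_stab`: in that situation every element of `N_G(Q, f)` lies in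
  `C_G(Q) N_G(P, e)`.
-/

set_option autoImplicit false

namespace Cfsg.Agent.Helper25

open Cfsg
open scoped ComplexConjugate Pointwise

universe u

variable {G : Type u} [Group G] {p : ℕ} {M : Ideal AlgInt}

/-- A Brauer pair of `B` whose subgroup has the order of a defect group of `B` is maximal. -/
theorem isMaximal_of_card [Fintype G] [Fact p.Prime] (hM : IsPModular p M)
    {B : Set (IrrCharacter G)} {P : Subgroup G}
    {e : Set (IrrCharacter (Subgroup.centralizer (P : Set G)))}
    (h : IsBrauerPairOf p M B P e) (hcard : Nat.card P = p ^ blockDefect p B) :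
    IsMaximalBrauerPair p M B P e := by
  refine ⟨h, fun R g hRg hle => ?_⟩
  obtain ⟨b, hbmax, hab⟩ := exists_maximal_ge (Nat.card G) ⟨R, g⟩ hRg (Nat.sub_le _ _)
  have hD := isDefectGroup_of_maximal hM hbmax
  have hc := Cfsg.Agent.Helper7.card_defectGroup hM h.2.1 hD
  have h1 : R ≤ b.1 := subpairLE_le ⟨R, g⟩ b hab
  have h2 : P ≤ R := subpairLE_le ⟨P, e⟩ ⟨R, g⟩ hle
  have h3 : Nat.card R ≤ Nat.card P := by
    rw [hcard, ← hc]
    exact Subgroup.card_le_of_le h1
  exact (Subgroup.eq_of_le_of_card_ge h2 h3).symm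

/-- Conjugating a pair by an element of `N_G(Q)` stabilizing the block gives the same pair. -/
theorem conjIdx_eq_self [Finite G] (Q : Subgroup G)
    (f : Set (IrrCharacter (Subgroup.centralizer (Q : Set G)))) (x : G)
    (hxN : x ∈ Subgroup.normalizer (Q : Set G))
    (hxst : StabilizesBlock (Subgroup.centralizer (Q : Set G)) f x) :
    conjIdx x (⟨Q, f⟩ : BrauerPairIdx G) = ⟨Q, f⟩ := by
  have hx' : x⁻¹ ∈ blockStab (Subgroup.centralizer (Q : Set G)) f :=
    Subgroup.inv_mem _ ((mem_blockStab _ f x).mpr hxst)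
  have hxN' : x⁻¹ ∈ Subgroup.normalizer ((Subgroup.centralizer (Q : Set G) : Subgroup G) : Set G) :=
    blockStab_le_normalizer _ f hx'
  have hst : (⟨x⁻¹, hxN'⟩ : Subgroup.normalizer
      ((Subgroup.centralizer (Q : Set G) : Subgroup G) : Set G)) • f = f :=
    (stabilizesBlock_iff_smul_eq _ f ⟨x⁻¹, hxN'⟩).mp ((mem_blockStab _ f x⁻¹).mp hx')
  have h1 := conjIdx_inv_smul Q f ⟨x⁻¹, hxN'⟩ (Subgroup.inv_mem _ hxN)
  rw [hst] at h1
  simpa using h1

/-- Conjugating a pair `(P, e)` by `y ∈ N_G(P)` gives `(P, y • e)`. -/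
theorem conjIdx_eq_smul (P : Subgroup G)
    (e : Set (IrrCharacter (Subgroup.centralizer (P : Set G))))
    (y : Subgroup.normalizer ((Subgroup.centralizer (P : Set G) : Subgroup G) : Set G))
    (hy : (y : G) ∈ Subgroup.normalizer (P : Set G)) :
    conjIdx (y : G) (⟨P, e⟩ : BrauerPairIdx G) = ⟨P, y • e⟩ := by
  have h1 := conjIdx_inv_smul P (y • e) y⁻¹ (by
    rw [Subgroup.coe_inv]
    exact Subgroup.inv_mem _ hy)
  rw [inv_smul_smul] at h1
  simpa using h1

theorem conj_mem_normalizer_map_conj (Q : Subgroup G) (t : G) {x : G}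
    (hx : x ∈ Subgroup.normalizer (Q : Set G)) :
    t * x * t⁻¹ ∈ Subgroup.normalizer ((Q.map (MulAut.conj t).toMonoidHom : Subgroup G) : Set G) := by
  rw [Subgroup.mem_normalizer_iff]
  intro k
  rw [mem_map_conj_iff, mem_map_conj_iff]
  have e : t⁻¹ * (t * x * t⁻¹ * k * (t * x * t⁻¹)⁻¹) * t = x * (t⁻¹ * k * t) * x⁻¹ := by group
  rw [e]
  exact Subgroup.mem_normalizer_iff.mp hx _

/-- For `(Q, f) ≤ (P, e)` maximal with `P ≤ C_G(Q)`, the order of `P` is that of a defect group
of `f`. -/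
theorem card_eq_of_le_centralizer [Fintype G] [Fact p.Prime] (hM : IsPModular p M)
    {B : Set (IrrCharacter G)} {P Q : Subgroup G}
    {e : Set (IrrCharacter (Subgroup.centralizer (P : Set G)))}
    {f : Set (IrrCharacter (Subgroup.centralizer (Q : Set G)))}
    (hmax : IsMaximalBrauerPair p M B P e) (hQP : Q ≤ P)
    (hPC : P ≤ Subgroup.centralizer (Q : Set G)) (hle : SubpairLE p M Q f P e) :
    Nat.card P = p ^ blockDefect p f := by
  have hPe := hmax.1.1
  have hf : IsPBlock M f := (isBrauerPair_of_subpairLE (a := ⟨Q, f⟩) (c := ⟨P, e⟩) hPe hle).2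
  apply le_antisymm
  · obtain ⟨D, hD, hPD⟩ := exists_defectGroup_of_subpairLE hM hPe hQP hle
    rw [← Cfsg.Agent.Helper7.card_defectGroup hM hf hD]
    have h1 : Nat.card P = Nat.card ((P ⊓ Subgroup.centralizer (Q : Set G)).subgroupOf
        (Subgroup.centralizer (Q : Set G))) := by
      rw [Subgroup.inf_subgroupOf_right]
      exact (Nat.card_congr (Subgroup.subgroupOfEquivOfLe hPC).toEquiv).symm
    rw [h1]
    exact Subgroup.card_le_of_le hPD
  · obtain ⟨x, -, hx⟩ := exists_conj_defectGroup hM hmax hle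
    have h1 := Cfsg.Agent.Helper7.card_defectGroup hM (isPBlock_conjBlock Q x hf) hx
    rw [blockDefect_conjBlock] at h1
    rw [← h1, Nat.card_congr (Subgroup.subgroupOfEquivOfLe
      (inf_le_right : P ⊓ Subgroup.centralizer
        ((Q.map (MulAut.conj x).toMonoidHom : Subgroup G) : Set G) ≤ _)).toEquiv]
    exact Subgroup.card_le_of_le inf_le_left

/-- For `(Q, f) ≤ (P, e)` maximal with `P ≤ C_G(Q)`, the group `P` is a defect group of `f`. -/
theorem isDefectGroup_sub [Fintype G] [Fact p.Prime] (hM : IsPModular p M)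
    {B : Set (IrrCharacter G)} {P Q : Subgroup G}
    {e : Set (IrrCharacter (Subgroup.centralizer (P : Set G)))}
    {f : Set (IrrCharacter (Subgroup.centralizer (Q : Set G)))}
    (hmax : IsMaximalBrauerPair p M B P e) (hQP : Q ≤ P)
    (hPC : P ≤ Subgroup.centralizer (Q : Set G)) (hle : SubpairLE p M Q f P e) :
    IsDefectGroup p M f (P.subgroupOf (Subgroup.centralizer (Q : Set G))) := by
  have hPe := hmax.1.1
  have hf : IsPBlock M f := (isBrauerPair_of_subpairLE (a := ⟨Q, f⟩) (c := ⟨P, e⟩) hPe hle).2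
  obtain ⟨D, hD, hPD⟩ := exists_defectGroup_of_subpairLE hM hPe hQP hle
  rw [Subgroup.inf_subgroupOf_right] at hPD
  have hc : Nat.card D ≤ Nat.card (P.subgroupOf (Subgroup.centralizer (Q : Set G))) := by
    rw [Cfsg.Agent.Helper7.card_defectGroup hM hf hD,
      Nat.card_congr (Subgroup.subgroupOfEquivOfLe hPC).toEquiv,
      card_eq_of_le_centralizer hM hmax hQP hPC hle]
  rw [Subgroup.eq_of_le_of_card_ge hPD hc]
  exact hD

/-- For `(Q, f) ≤ (P, e)` maximal with `P ≤ C_G(Q)`: every element of `N_G(Q, f)` lies in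
`C_G(Q) N_G(P, e)`. -/
theorem exists_mul_mem_stab [Fintype G] [Fact p.Prime] (hM : IsPModular p M)
    {B : Set (IrrCharacter G)} {P Q : Subgroup G}
    {e : Set (IrrCharacter (Subgroup.centralizer (P : Set G)))}
    {f : Set (IrrCharacter (Subgroup.centralizer (Q : Set G)))}
    (hmax : IsMaximalBrauerPair p M B P e) (hQP : Q ≤ P)
    (hPC : P ≤ Subgroup.centralizer (Q : Set G)) (hle : SubpairLE p M Q f P e)
    (x : G) (hxN : x ∈ Subgroup.normalizer (Q : Set G))
    (hxst : StabilizesBlock (Subgroup.centralizer (Q : Set G)) f x) :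
    ∃ c ∈ Subgroup.centralizer (Q : Set G), c * x ∈ Subgroup.normalizer (P : Set G) ∧
      StabilizesBlock (Subgroup.centralizer (P : Set G)) e (c * x) := by
  classical
  let _ : Fintype (Subgroup.centralizer (Q : Set G)) := Fintype.ofFinite _
  have hPe := hmax.1.1
  have hB := hmax.1.2.1
  have hf : IsPBlock M f := (isBrauerPair_of_subpairLE (a := ⟨Q, f⟩) (c := ⟨P, e⟩) hPe hle).2
  have hcard := card_eq_of_le_centralizer hM hmax hQP hPC hle
  have hD₁ := isDefectGroup_sub hM hmax hQP hPC hle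
  have hle' : SubpairLE p M Q f (P.map (MulAut.conj x).toMonoidHom) (conjBlock P x e) := by
    have h1 := subpairLE_conj x hle
    rw [conjIdx_eq_self Q f x hxN hxst] at h1
    exact h1
  have hmax' : IsMaximalBrauerPair p M B (P.map (MulAut.conj x).toMonoidHom)
      (conjBlock P x e) := by
    apply isMaximal_of_card hM (isBrauerPairOf_conj x hmax.1)
    rw [Subgroup.card_map_of_injective (MulAut.conj x).injective]
    exact Cfsg.Agent.Helper7.card_defectGroup hM hB (isDefectGroup_of_maximal hM hmax)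
  have hQP' : Q ≤ P.map (MulAut.conj x).toMonoidHom :=
    subpairLE_le (⟨Q, f⟩ : BrauerPairIdx G) ⟨_, conjBlock P x e⟩ hle'
  have hPC' : P.map (MulAut.conj x).toMonoidHom ≤ Subgroup.centralizer (Q : Set G) := by
    rintro _ ⟨u, hu, rfl⟩
    rw [Subgroup.mem_centralizer_iff]
    intro q hq
    have h1 : x⁻¹ * q * x ∈ Q := by
      have := (Subgroup.mem_normalizer_iff.mp (Subgroup.inv_mem _ hxN) q).mp hq
      simpa using this
    have h2 := Subgroup.mem_centralizer_iff.mp (hPC hu) _ h1
    show q * (x * u * x⁻¹) = x * u * x⁻¹ * q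
    calc q * (x * u * x⁻¹) = x * ((x⁻¹ * q * x) * u) * x⁻¹ := by group
      _ = x * (u * (x⁻¹ * q * x)) * x⁻¹ := by rw [h2]
      _ = x * u * x⁻¹ * q := by group
  have hD₂ := isDefectGroup_sub hM hmax' hQP' hPC' hle'
  obtain ⟨c, hc⟩ := exists_conj_of_isDefectGroup hM hf hD₁ hD₂
  have hyN : (c : G) * x ∈ Subgroup.normalizer (P : Set G) := by
    apply mem_normalizer_of_conj_mem
    intro u hu
    have h1 : x * u * x⁻¹ ∈ P.map (MulAut.conj x).toMonoidHom := conj_mem_map_conj P x hu
    have h2 : (⟨x * u * x⁻¹, hPC' h1⟩ : Subgroup.centralizer (Q : Set G)) ∈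
        (P.map (MulAut.conj x).toMonoidHom).subgroupOf (Subgroup.centralizer (Q : Set G)) :=
      Subgroup.mem_subgroupOf.mpr h1
    have h3 := conj_mem_map_conj _ c h2
    rw [hc] at h3
    have h4 := Subgroup.mem_subgroupOf.mp h3
    have e1 : (c : G) * x * u * ((c : G) * x)⁻¹ = (c : G) * (x * u * x⁻¹) * (c : G)⁻¹ := by group
    rw [e1]
    exact h4
  have hyNQ : (c : G) * x ∈ Subgroup.normalizer (Q : Set G) :=
    Subgroup.mul_mem _ (Subgroup.centralizer_le_normalizer _ c.2) hxN
  have hyst : StabilizesBlock (Subgroup.centralizer (Q : Set G)) f ((c : G) * x) :=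
    (mem_blockStab _ f _).mp (Subgroup.mul_mem _ (le_blockStab_self _ f c.2)
      ((mem_blockStab _ f x).mpr hxst))
  obtain ⟨y', hy'⟩ : ∃ y' : Subgroup.normalizer
      ((Subgroup.centralizer (P : Set G) : Subgroup G) : Set G), (y' : G) = (c : G) * x :=
    ⟨⟨(c : G) * x, normalizer_le_normalizer_centralizer P hyN⟩, rfl⟩
  have hle₂ : SubpairLE p M Q f P (y' • e) := by
    have h1 := subpairLE_conj ((c : G) * x) hle
    rw [conjIdx_eq_self Q f _ hyNQ hyst, ← hy', conjIdx_eq_smul P e y' (by rw [hy']; exact hyN)]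
      at h1
    exact h1
  have hPN : P ≤ Subgroup.normalizer (Q : Set G) :=
    hPC.trans (Subgroup.centralizer_le_normalizer _)
  have hns₁ : IsNormalSubpair p M Q f P e :=
    normalSubpair_of_subpairLE hM (a := ⟨Q, f⟩) (c := ⟨P, e⟩) hPe hle hPN
  have hPe₂ : IsBrauerPair p M P (y' • e) := ⟨hPe.1, (isPBlock_smul _ y' e).mpr hPe.2⟩
  have hns₂ : IsNormalSubpair p M Q f P (y' • e) :=
    normalSubpair_of_subpairLE hM (a := ⟨Q, f⟩) (c := ⟨P, y' • e⟩) hPe₂ hle₂ hPN
  have hCH : Subgroup.centralizer (P : Set G) ≤ Subgroup.centralizer (Q : Set G) :=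
    Subgroup.centralizer_le hQP
  have hb₁ := isBrauerPairOf_sub P Q hPC hCH hns₁
  have hb₂ := isBrauerPairOf_sub P Q hPC hCH hns₂
  have hmaxH : IsMaximalBrauerPair p M f (P.subgroupOf (Subgroup.centralizer (Q : Set G)))
      (subBlock (Subgroup.centralizer (Q : Set G)) P hPC hCH e) := by
    apply isMaximal_of_card hM hb₁
    rw [Nat.card_congr (Subgroup.subgroupOfEquivOfLe hPC).toEquiv]
    exact hcard
  have hH : NoUpperPair p M (P.subgroupOf (Subgroup.centralizer (Q : Set G)))
      (subBlock (Subgroup.centralizer (Q : Set G)) P hPC hCH e) :=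
    fun R hR hPR hne hRN hst x hx => li_blockCoeff_of_maximal hM hmaxH R hR hPR hne hRN hst x hx
  obtain ⟨n, hn, hn2⟩ := mem_orbitSet_of_isBrauerPairOf hM hb₁ hH hb₂
  have hnN : (((n : Subgroup.centralizer (Q : Set G))) : G) ∈ Subgroup.normalizer (P : Set G) := by
    apply mem_normalizer_of_conj_mem
    intro u hu
    have h1 := (Subgroup.mem_normalizer_iff.mp hn ⟨u, hPC hu⟩).mp (Subgroup.mem_subgroupOf.mpr hu)
    exact Subgroup.mem_subgroupOf.mp h1
  have hnNC := normalizer_le_normalizer_centralizer P hnN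
  rw [smul_subBlock (Subgroup.centralizer (Q : Set G)) P hPC hCH e n hnNC] at hn2
  have h5 := subBlock_injective (Subgroup.centralizer (Q : Set G)) P hPC hCH hn2
  refine ⟨((n : Subgroup.centralizer (Q : Set G)) : G)⁻¹ * (c : G),
    Subgroup.mul_mem _ (Subgroup.inv_mem _ (n : Subgroup.centralizer (Q : Set G)).2) c.2, ?_, ?_⟩
  · rw [mul_assoc]
    exact Subgroup.mul_mem _ (Subgroup.inv_mem _ hnN) hyN
  · rw [mul_assoc, ← hy']
    have h6 : (((⟨((n : Subgroup.centralizer (Q : Set G)) : G), hnNC⟩ : Subgroup.normalizer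
        ((Subgroup.centralizer (P : Set G) : Subgroup G) : Set G))⁻¹ * y' : Subgroup.normalizer
        ((Subgroup.centralizer (P : Set G) : Subgroup G) : Set G)) : G)
        = ((n : Subgroup.centralizer (Q : Set G)) : G)⁻¹ * (y' : G) := rfl
    rw [← h6]
    apply (stabilizesBlock_iff_smul_eq (Subgroup.centralizer (P : Set G)) e _).mpr
    rw [mul_smul, h5, inv_smul_smul]

end Cfsg.Agent.Helper25
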