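import Mathlib
import Cfsg.Agent.Helper25.BlockPairs14
import Cfsg.Agent.Helper7.BlockQuot
import Cfsg.Agent.Helper26.BlockQuot

/-!
# Shared block-theory library (helper25), part 28: the block of a maximal Brauer pair

* `isDefectGroup_center_of_noUpperPair`: for a Brauer pair `(Q, e)` with nothing above it,
  `Z(Q)` is a defect group of `e`.
* `exists_class_of_defect_zero_mod`: a character of defect zero modulo a central `p`-subgroup `Z`
  has a class with central character a unit and centralizer of `p`-part `|Z|`.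
* `exists_isBrauerPairOf`: every Brauer pair is a Brauer pair of some block.
-/

set_option autoImplicit false

namespace Cfsg.Agent.Helper25

open Cfsg
open scoped ComplexConjugate Pointwise

universe u

variable {G : Type u} [Group G] {p : ℕ} {M : Ideal AlgInt}

theorem subgroupOf_centralizer_normal (Q : Subgroup G) :
    (Q.subgroupOf (Subgroup.centralizer (Q : Set G))).Normal :=
  ⟨fun z hz c => by
    have h1 : (c : G) * (z : G) = (z : G) * (c : G) :=
      (Subgroup.mem_centralizer_iff.mp c.2 (z : G) (Subgroup.mem_subgroupOf.mp hz)).symm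
    have h2 : c * z * c⁻¹ = z := by
      apply Subtype.ext
      show (c : G) * (z : G) * (c : G)⁻¹ = (z : G)
      rw [h1, mul_inv_cancel_right]
    rw [h2]
    exact hz⟩

theorem card_subgroupOf_centralizer (Q : Subgroup G) :
    Nat.card (Q.subgroupOf (Subgroup.centralizer (Q : Set G)))
      = Nat.card ↥(Q ⊓ Subgroup.centralizer (Q : Set G)) := by
  rw [← Subgroup.inf_subgroupOf_right]
  exact Nat.card_congr (Subgroup.subgroupOfEquivOfLe inf_le_right).toEquiv

/-- For a Brauer pair `(Q, e)` with nothing above it, `Z(Q)` is a defect group of `e`. -/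
theorem isDefectGroup_center_of_noUpperPair [Finite G] [Fact p.Prime] (hM : IsPModular p M)
    {Q : Subgroup G} {e : Set (IrrCharacter (Subgroup.centralizer (Q : Set G)))}
    (hQe : IsBrauerPair p M Q e) (hH : NoUpperPair p M Q e) :
    IsDefectGroup p M e (Q.subgroupOf (Subgroup.centralizer (Q : Set G))) := by
  classical
  obtain ⟨g₀, hg₀⟩ := exists_isDefectClass hM hQe.2
  have hZp : IsPGroup p (Q.subgroupOf (Subgroup.centralizer (Q : Set G))) := hQe.1.comap_subtype
  have hZg : Q.subgroupOf (Subgroup.centralizer (Q : Set G))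
      ≤ Subgroup.centralizer ({g₀} : Set (Subgroup.centralizer (Q : Set G))) := by
    intro z hz
    rw [Subgroup.mem_centralizer_singleton_iff]
    apply Subtype.ext
    exact (Subgroup.mem_centralizer_iff.mp g₀.2 (z : G) (Subgroup.mem_subgroupOf.mp hz))
  obtain ⟨S, hS⟩ := Cfsg.Agent.Helper7.exists_sylow_ge p
    (Subgroup.centralizer ({g₀} : Set (Subgroup.centralizer (Q : Set G)))) _ hZp hZg
  obtain ⟨D, hD⟩ : ∃ D : Subgroup (Subgroup.centralizer (Q : Set G)),
      D = (S : Subgroup _).map (Subgroup.centralizer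
        ({g₀} : Set (Subgroup.centralizer (Q : Set G)))).subtype := ⟨_, rfl⟩
  rw [← hD] at hS
  have hDp : IsPGroup p D := by
    rw [hD]
    exact S.isPGroup'.map _
  have hDg : ∀ d ∈ D, d * g₀ = g₀ * d := by
    intro d hd
    rw [hD] at hd
    exact Subgroup.mem_centralizer_singleton_iff.mp (Subgroup.map_subtype_le _ hd)
  have hDZ : D = Q.subgroupOf (Subgroup.centralizer (Q : Set G)) := by
    by_contra hne
    obtain ⟨D', hD'⟩ : ∃ D' : Subgroup G,
        D' = D.map (Subgroup.centralizer (Q : Set G)).subtype := ⟨_, rfl⟩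
    have hD'C : D' ≤ Subgroup.centralizer (Q : Set G) := by
      rw [hD']
      exact Subgroup.map_subtype_le _
    have hD'p : IsPGroup p D' := by
      rw [hD']
      exact hDp.map _
    have hD'N : D' ≤ Subgroup.normalizer (Q : Set G) :=
      hD'C.trans (Subgroup.centralizer_le_normalizer _)
    have hRp : IsPGroup p (Q ⊔ D' : Subgroup G) :=
      IsPGroup.to_sup_of_normal_left' hQe.1 hD'p hD'N
    have hRN : Q ⊔ D' ≤ Subgroup.normalizer (Q : Set G) := sup_le Subgroup.le_normalizer hD'N
    have hQst : Q ≤ blockStab (Subgroup.centralizer (Q : Set G)) e := by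
      intro u hu
      apply centralizer_le_blockStab _ e
      rw [Subgroup.mem_centralizer_iff]
      intro g hg
      exact (Subgroup.mem_centralizer_iff.mp hg u hu).symm
    have hRst : Q ⊔ D' ≤ blockStab (Subgroup.centralizer (Q : Set G)) e :=
      sup_le hQst (hD'C.trans (le_blockStab_self _ e))
    have hRg : Q ⊔ D' ≤ Subgroup.centralizer ({(g₀ : G)} : Set G) := by
      apply sup_le
      · intro u hu
        rw [Subgroup.mem_centralizer_singleton_iff]
        exact Subgroup.mem_centralizer_iff.mp g₀.2 u hu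
      · rw [hD']
        rintro _ ⟨d, hd, rfl⟩
        rw [Subgroup.mem_centralizer_singleton_iff]
        exact congrArg Subtype.val (hDg d hd)
    apply hg₀.2.1
    apply hH (Q ⊔ D') hRp le_sup_left ?_ hRN
      (fun x hx => (mem_blockStab _ e x).mp (hRst hx)) g₀
    · rw [Subgroup.mem_centralizer_iff]
      intro r hr
      exact Subgroup.mem_centralizer_singleton_iff.mp (hRg hr)
    · intro hRQ
      apply hne
      apply le_antisymm _ hS
      intro d hd
      rw [Subgroup.mem_subgroupOf]
      have h1 : (d : G) ∈ D' := by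
        rw [hD']
        exact Subgroup.mem_map.mpr ⟨d, hd, rfl⟩
      have h2 : (d : G) ∈ Q ⊔ D' := (le_sup_right : D' ≤ Q ⊔ D') h1
      rw [hRQ] at h2
      exact h2
  rw [← hDZ]
  exact ⟨g₀, hg₀, S, hD⟩

/-- A character of defect zero modulo a central `p`-subgroup `Z` has a class on which its central
character is a unit and whose centralizer has `p`-part at most `|Z|`. -/
theorem exists_class_of_defect_zero_mod {H : Type u} [Group H] [Finite H] [Fact p.Prime]
    (hM : IsPModular p M) (Z : Subgroup H) [Z.Normal] (hZc : Z ≤ Subgroup.center H)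
    (hZp : IsPGroup p Z) (θ : IrrCharacter H) (hker : Z ≤ irrKer θ)
    (hdeg : (Nat.card H).factorization p
      ≤ (charDegree (θ : H → ℂ)).factorization p + (Nat.card Z).factorization p) :
    ∃ g₀ : H, ¬ MemLocalIdeal M (centralChar (θ : H → ℂ) g₀) ∧
      (Nat.card (Subgroup.centralizer ({g₀} : Set H))).factorization p
        ≤ (Nat.card Z).factorization p := by
  classical
  have hp : p.Prime := hM.1
  obtain ⟨ψ, hψ⟩ := exists_deflate θ Z hker
  have hcard : Nat.card H = Nat.card (H ⧸ Z) * Nat.card Z :=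
    Subgroup.card_eq_card_quotient_mul_card_subgroup Z
  have hdegψ : charDegree (ψ : H ⧸ Z → ℂ) = charDegree (θ : H → ℂ) := by
    unfold charDegree
    rw [← hψ 1]
    rfl
  have hd0 : (Nat.card (H ⧸ Z)).factorization p ≤ (charDegree (ψ : H ⧸ Z → ℂ)).factorization p := by
    rw [hdegψ]
    rw [hcard, Nat.factorization_mul Nat.card_pos.ne' Nat.card_pos.ne'] at hdeg
    simp only [Finsupp.coe_add, Pi.add_apply] at hdeg
    omega
  have hB : IsPBlock M (blockOf M (ψ : H ⧸ Z → ℂ)) := isPBlock_blockOf ψ
  obtain ⟨gb, hgb⟩ := exists_isDefectClass hM hB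
  have hcc := hgb.2.2 ψ (self_mem_blockOf hM ψ)
  have hreg : ¬ p ∣ orderOf gb := by
    intro hdvd
    apply hcc
    have h0 := Cfsg.Agent.Helper7.irr_vanish_of_defect_zero hM ψ hd0 gb hdvd
    unfold centralChar
    rw [h0, mul_zero, zero_div]
    exact li_zero hM
  -- the defect group is trivial
  obtain ⟨S⟩ : Nonempty (Sylow p (Subgroup.centralizer ({gb} : Set (H ⧸ Z)))) := inferInstance
  have hDG : IsDefectGroup p M (blockOf M (ψ : H ⧸ Z → ℂ))
      ((S : Subgroup _).map (Subgroup.centralizer ({gb} : Set (H ⧸ Z))).subtype) :=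
    ⟨gb, hgb, S, rfl⟩
  have hdef : blockDefect p (blockOf M (ψ : H ⧸ Z → ℂ)) = 0 := by
    unfold blockDefect
    have himg : (fun χ : IrrCharacter (H ⧸ Z) => (charDegree (χ : H ⧸ Z → ℂ)).factorization p) ''
        (blockOf M (ψ : H ⧸ Z → ℂ)) = {(charDegree (ψ : H ⧸ Z → ℂ)).factorization p} := by
      ext n
      constructor
      · rintro ⟨χ, hχ, rfl⟩
        rw [eq_of_mem_block_of_defect_zero hM hB (self_mem_blockOf hM ψ) hχ hd0]
        rfl
      · intro hn
        rw [Set.mem_singleton_iff] at hn
        exact ⟨ψ, self_mem_blockOf hM ψ, hn.symm⟩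
    rw [himg, csInf_singleton]
    omega
  have hScard := Cfsg.Agent.Helper7.card_defectGroup hM hB hDG
  rw [hdef, pow_zero, Subgroup.card_map_of_injective (Subgroup.subtype_injective _),
    S.card_eq_multiplicity] at hScard
  have hν0 : (Nat.card (Subgroup.centralizer ({gb} : Set (H ⧸ Z)))).factorization p = 0 := by
    by_contra hne
    have : 1 < p ^ (Nat.card (Subgroup.centralizer ({gb} : Set (H ⧸ Z)))).factorization p :=
      Nat.one_lt_pow hne hp.one_lt
    omega
  obtain ⟨g₀, hg₀, hg₀reg⟩ := Cfsg.Agent.Helper7.exists_regular_lift hp Z gb hreg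
  have hg₀C : g₀ ∈ Subgroup.centralizer (Z : Set H) := by
    rw [Subgroup.mem_centralizer_iff]
    intro z hz
    exact (Subgroup.mem_center_iff.mp (hZc hz) g₀).symm
  have hidx := Cfsg.Agent.Helper7.index_centralizer_quot_eq hp Z hZp g₀ hg₀reg hg₀C
  rw [hg₀] at hidx
  refine ⟨g₀, ?_, ?_⟩
  · have h1 := Cfsg.Agent.Helper7.centralChar_inflate Z (ψ : H ⧸ Z → ℂ) g₀ 1 (by
      rw [one_mul, hg₀]
      exact hidx)
    have h2 : (ψ : H ⧸ Z → ℂ) ∘ (QuotientGroup.mk : H → H ⧸ Z) = (θ : H → ℂ) := by
      funext g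
      exact hψ g
    rw [h2, hg₀, Nat.cast_one, one_mul] at h1
    rw [h1]
    exact hcc
  · have h1 := Subgroup.card_mul_index (Subgroup.centralizer ({g₀} : Set H))
    have h2 := Subgroup.card_mul_index (Subgroup.centralizer ({gb} : Set (H ⧸ Z)))
    have hidxpos : 0 < (Subgroup.centralizer ({gb} : Set (H ⧸ Z))).index :=
      Nat.pos_of_ne_zero Subgroup.index_ne_zero_of_finite
    have h3 : Nat.card (Subgroup.centralizer ({g₀} : Set H))
        = Nat.card (Subgroup.centralizer ({gb} : Set (H ⧸ Z))) * Nat.card Z := by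
      apply Nat.eq_of_mul_eq_mul_right hidxpos
      rw [← hidx, h1, hcard, ← h2, hidx]
      ring
    rw [h3, Nat.factorization_mul Nat.card_pos.ne' Nat.card_pos.ne']
    simp only [Finsupp.coe_add, Pi.add_apply]
    omega

/-- Every Brauer pair is a Brauer pair of some block. -/
theorem exists_isBrauerPairOf [Finite G] (hM : IsPModular p M) {Q : Subgroup G}
    {e : Set (IrrCharacter (Subgroup.centralizer (Q : Set G)))} (hQe : IsBrauerPair p M Q e) :
    ∃ B : Set (IrrCharacter G), IsBrauerPairOf p M B Q e := by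
  classical
  let _ : Fintype G := Fintype.ofFinite G
  let _ : Fintype (Subgroup.centralizer (Q : Set G)) := Fintype.ofFinite _
  obtain ⟨θ, hθ⟩ : ∃ θ, θ ∈ e := by
    obtain ⟨ξ₀, rfl⟩ := hQe.2
    exact ⟨ξ₀, self_mem_blockOf hM ξ₀⟩
  obtain ⟨B, hB, hBθ, -⟩ := exists_unique_block_brauerOmega Q hM hQe.1 θ
  refine ⟨B, hQe, hB, fun ξ hξ => ?_⟩
  have h1 := omega_congr hM (fun c : Subgroup.centralizer (Q : Set G) => blockCoeff B (c : G))
    (res_classFun _ (blockCoeff_conj B)) (fun c => blockCoeff_lr hM hB _)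
    (sameBlock_of_mem hM hQe.2 hξ hθ)
  rw [brauerOmega_eq_omega] at hBθ ⊢
  have h2 := li_add hM h1 hBθ
  have e1 : omega (fun c : Subgroup.centralizer (Q : Set G) => blockCoeff B (c : G)) ξ
      - omega (fun c : Subgroup.centralizer (Q : Set G) => blockCoeff B (c : G)) θ
      + (omega (fun c : Subgroup.centralizer (Q : Set G) => blockCoeff B (c : G)) θ - 1)
      = omega (fun c : Subgroup.centralizer (Q : Set G) => blockCoeff B (c : G)) ξ - 1 := by ring
  rw [e1] at h2
  exact h2

end Cfsg.Agent.Helper25
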