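import Mathlib
import Cfsg.Agent.Helper25.GalConj
import Cfsg.Agent.Helper25.CharClass
import Cfsg.Agent.Helper25.CharArith
import Cfsg.Agent.Lead.Rank
import Cfsg.Agent.Helper10.CopGen2

/-!
# Characters multiplicative on coprime prime-power elements (helper25)

Lemmas for S4756: a finite group all of whose irreducible characters are multiplicative on pairs
of nontrivial elements of prime-power orders for different primes is a `p`-group, abelian, or a
split extension `A P` of a special shape.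
-/

set_option autoImplicit false

namespace Cfsg.Agent.Helper25

universe u

variable {G : Type u} [Group G]

open scoped commutatorElement

/-- `∑_{b ∈ N} χ(a b) = χ(a) (∑_{b ∈ N} χ(b)) / χ(1)` for a normal subgroup `N`. -/
theorem cm_sum_coset [Finite G] (χ : IrrCharacter G) (N : Subgroup G) [N.Normal] [Fintype N]
    (a : G) :
    ∑ b : N, (χ : G → ℂ) (a * (b : G)) =
      (χ : G → ℂ) a * (∑ b : N, (χ : G → ℂ) (b : G)) / (χ : G → ℂ) 1 := by
  classical
  haveI := Fintype.ofFinite G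
  have h1 : ∀ y : G, ∑ b : N, (χ : G → ℂ) (a * (y * (b : G) * y⁻¹)) =
      ∑ b : N, (χ : G → ℂ) (a * (b : G)) := by
    intro y
    exact Equiv.sum_comp (MulAut.conjNormal y : N ≃* N).toEquiv
      (fun b : N => (χ : G → ℂ) (a * (b : G)))
  have h2 : ∑ b : N, ∑ y : G, (χ : G → ℂ) (a * (y * (b : G) * y⁻¹)) =
      ∑ b : N, (Nat.card G : ℂ) * (χ : G → ℂ) a * (χ : G → ℂ) (b : G) / (χ : G → ℂ) 1 := by
    apply Finset.sum_congr rfl
    intro b _
    exact irr_sum_conj_mul χ a b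
  rw [Finset.sum_comm] at h2
  simp only [h1] at h2
  rw [Finset.sum_const, Finset.card_univ, nsmul_eq_mul, ← Nat.card_eq_fintype_card] at h2
  have hG : (Nat.card G : ℂ) ≠ 0 := by exact_mod_cast Nat.card_pos.ne'
  have h3 : ∑ b : N, (Nat.card G : ℂ) * (χ : G → ℂ) a * (χ : G → ℂ) (b : G) / (χ : G → ℂ) 1 =
      (Nat.card G : ℂ) * ((χ : G → ℂ) a * (∑ b : N, (χ : G → ℂ) (b : G)) / (χ : G → ℂ) 1) := by
    rw [Finset.mul_sum, Finset.sum_div, Finset.mul_sum]
    apply Finset.sum_congr rfl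
    intro b _
    ring
  rw [h3] at h2
  exact mul_left_cancel₀ hG h2

/-- If `g n` is conjugate to `g` for every `n` in the normal subgroup `N ≥ G'`, every nonlinear
irreducible character vanishes at `g`. -/
theorem cm_vanish_of_conj [Finite G] (χ : IrrCharacter G) (N : Subgroup G) [N.Normal]
    (hN : ∀ a b : G, a * b * a⁻¹ * b⁻¹ ∈ N) (g : G) (hg : ∀ n ∈ N, IsConj g (g * n))
    (hχ : charDegree (χ : G → ℂ) ≠ 1) : (χ : G → ℂ) g = 0 := by
  classical
  haveI := Fintype.ofFinite G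
  by_contra h0
  have h1 := cm_sum_coset χ N g
  have h2 : ∑ b : N, (χ : G → ℂ) (g * (b : G)) = (Nat.card N : ℂ) * (χ : G → ℂ) g := by
    have h3 : ∀ b : N, (χ : G → ℂ) (g * (b : G)) = (χ : G → ℂ) g := fun b =>
      (char_of_isConj (irr_isCharacter χ) (hg b b.2)).symm
    rw [Finset.sum_congr rfl (fun b _ => h3 b), Finset.sum_const,
      Finset.card_univ, nsmul_eq_mul, Nat.card_eq_fintype_card]
  rw [h2] at h1
  have hne := irr_one_ne_zero χ
  rw [eq_div_iff hne] at h1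
  have h3 : ∑ b : N, (χ : G → ℂ) (b : G) = (Nat.card N : ℂ) * (χ : G → ℂ) 1 := by
    apply mul_left_cancel₀ h0
    rw [← h1]
    ring
  have h4 : ∑ x ∈ (Finset.univ : Finset N).map ⟨Subtype.val, Subtype.val_injective⟩,
      (χ : G → ℂ) x =
      (((Finset.univ : Finset N).map ⟨Subtype.val, Subtype.val_injective⟩).card : ℂ) *
        (χ : G → ℂ) 1 := by
    rw [Finset.sum_map, Finset.card_map, Finset.card_univ, ← Nat.card_eq_fintype_card]
    exact h3
  have h5 := irr_eq_one_of_sum_eq χ _ h4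
  apply hχ
  apply gq_linear_of_comm_ker
  intro a b
  apply h5
  rw [Finset.mem_map]
  exact ⟨⟨a * b * a⁻¹ * b⁻¹, hN a b⟩, Finset.mem_univ _, rfl⟩

/-- If `χ(x y^g) = χ(x) χ(y)` for all `g` and `χ` is nonlinear, then `χ(x) χ(y) = 0`. -/
theorem cm_prod_zero [Finite G] (χ : IrrCharacter G) (hχ : charDegree (χ : G → ℂ) ≠ 1) (x y : G)
    (h : ∀ g : G, (χ : G → ℂ) (x * (g * y * g⁻¹)) = (χ : G → ℂ) x * (χ : G → ℂ) y) :
    (χ : G → ℂ) x * (χ : G → ℂ) y = 0 := by
  classical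
  haveI := Fintype.ofFinite G
  have h1 := irr_sum_conj_mul χ x y
  rw [Finset.sum_congr rfl (fun g _ => h g), Finset.sum_const, Finset.card_univ, nsmul_eq_mul,
    ← Nat.card_eq_fintype_card] at h1
  have hne := irr_one_ne_zero χ
  have hG : (Nat.card G : ℂ) ≠ 0 := by exact_mod_cast Nat.card_pos.ne'
  rw [eq_div_iff hne] at h1
  have h2 : (χ : G → ℂ) x * (χ : G → ℂ) y * ((χ : G → ℂ) 1 - 1) = 0 := by
    apply mul_left_cancel₀ hG
    linear_combination h1
  rcases mul_eq_zero.mp h2 with h3 | h3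
  · exact h3
  · exfalso
    apply hχ
    have h4 : (χ : G → ℂ) 1 = 1 := by linear_combination h3
    rw [irr_one_eq_degree] at h4
    exact_mod_cast h4

/-- If `χ` vanishes on the nontrivial elements of a subgroup `R`, then `|R|` divides `χ(1)`. -/
theorem cm_card_dvd_degree [Finite G] (χ : IrrCharacter G) (R : Subgroup G)
    (h : ∀ u ∈ R, u ≠ 1 → (χ : G → ℂ) u = 0) : Nat.card R ∣ charDegree (χ : G → ℂ) := by
  classical
  haveI := Fintype.ofFinite R
  obtain ⟨m, hm⟩ := irr_sum_subgroup χ R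
  have h1 : ∑ u : R, (χ : G → ℂ) (u : G) = (χ : G → ℂ) 1 := by
    rw [Finset.sum_eq_single (1 : R)]
    · rfl
    · intro u _ hu
      exact h u u.2 (fun h1 => hu (Subtype.ext h1))
    · intro h; exact absurd (Finset.mem_univ _) h
  rw [h1, irr_one_eq_degree] at hm
  refine ⟨m, ?_⟩
  exact_mod_cast hm

/-- A nonlinear irreducible character has `χ(1)² < |G|`. -/
theorem cm_deg_sq_lt [Finite G] (χ : IrrCharacter G) (hχ : charDegree (χ : G → ℂ) ≠ 1) :
    charDegree (χ : G → ℂ) ^ 2 < Nat.card G := by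
  classical
  haveI := Fintype.ofFinite G
  have h1 := sum_irr_degree_sq_nat (G := G)
  have ht : charDegree (trivChar G : G → ℂ) = 1 := by
    have h2 := irr_one_eq_degree (trivChar G)
    rw [trivChar_apply] at h2
    exact_mod_cast h2.symm
  have hne : trivChar G ≠ χ := by
    intro h
    rw [← h] at hχ
    exact hχ ht
  rw [← Finset.add_sum_erase Finset.univ _ (Finset.mem_univ χ)] at h1
  have h3 : charDegree (trivChar G : G → ℂ) ^ 2 ≤
      ∑ ψ ∈ Finset.univ.erase χ, charDegree (ψ : G → ℂ) ^ 2 :=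
    Finset.single_le_sum (f := fun ψ : IrrCharacter G => charDegree (ψ : G → ℂ) ^ 2)
      (fun _ _ => Nat.zero_le _) (Finset.mem_erase.mpr ⟨hne, Finset.mem_univ _⟩)
  rw [ht] at h3
  omega

/-- `χ` vanishes on the nontrivial `r`-elements. -/
def cmV (χ : IrrCharacter G) (r : ℕ) : Prop :=
  ∀ x : G, x ≠ 1 → (∃ a : ℕ, orderOf x = r ^ a) → (χ : G → ℂ) x = 0

theorem cm_V_dvd [Finite G] (χ : IrrCharacter G) (r : ℕ) (hr : r.Prime) (hV : cmV χ r) (k : ℕ)
    (hk : r ^ k ∣ Nat.card G) : r ^ k ∣ charDegree (χ : G → ℂ) := by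
  haveI : Fact r.Prime := ⟨hr⟩
  let R : Sylow r G := default
  have h1 : r ^ k ∣ Nat.card R := R.pow_dvd_card_of_pow_dvd_card hk
  refine h1.trans (cm_card_dvd_degree χ R ?_)
  intro u hu hu1
  apply hV u hu1
  obtain ⟨j, hj⟩ := IsPGroup.iff_orderOf.mp R.isPGroup' ⟨u, hu⟩
  rw [Subgroup.orderOf_mk] at hj
  exact ⟨j, hj⟩

/-- Under multiplicativity on coprime prime-power elements in a nonabelian group, there is a
prime `p` such that every nonlinear irreducible character vanishes on all nontrivial elements of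
prime-power order for primes other than `p`. -/
theorem cm_exists_prime [Finite G]
    (h : ∀ (x y : G) (χ : IrrCharacter G), x ≠ 1 → y ≠ 1 →
      (∃ p q a b : ℕ, p.Prime ∧ q.Prime ∧ p ≠ q ∧ orderOf x = p ^ a ∧ orderOf y = q ^ b) →
      (χ : G → ℂ) (x * y) = (χ : G → ℂ) x * (χ : G → ℂ) y)
    (hab : ¬ ∀ a b : G, a * b = b * a) :
    ∃ p : ℕ, p.Prime ∧ ∀ χ : IrrCharacter G, charDegree (χ : G → ℂ) ≠ 1 →
      ∀ r : ℕ, r.Prime → r ≠ p → cmV χ r := by
  classical
  -- Fact A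
  have hA : ∀ χ : IrrCharacter G, charDegree (χ : G → ℂ) ≠ 1 → ∀ r s : ℕ, r.Prime → s.Prime →
      r ≠ s → cmV χ r ∨ cmV χ s := by
    intro χ hχ r s hr hs hrs
    by_contra hno
    rw [not_or] at hno
    obtain ⟨h1, h2⟩ := hno
    unfold cmV at h1 h2
    rw [not_forall] at h1 h2
    obtain ⟨x, hx⟩ := h1
    obtain ⟨y, hy⟩ := h2
    rw [Classical.not_imp] at hx hy
    obtain ⟨hx1, hx⟩ := hx
    obtain ⟨hy1, hy⟩ := hy
    rw [Classical.not_imp] at hx hy
    obtain ⟨⟨a, ha⟩, hxv⟩ := hx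
    obtain ⟨⟨b, hb⟩, hyv⟩ := hy
    have h3 := cm_prod_zero χ hχ x y (fun g => by
      have ho : orderOf (g * y * g⁻¹) = orderOf y := MulEquiv.orderOf_eq (MulAut.conj g) y
      have hne : g * y * g⁻¹ ≠ 1 := by
        intro h1
        apply hy1
        have : orderOf y = 1 := by rw [← ho, h1, orderOf_one]
        exact orderOf_eq_one_iff.mp this
      have h4 := h x (g * y * g⁻¹) χ hx1 hne ⟨r, s, a, b, hr, hs, hrs, ha, by rw [ho, hb]⟩
      rw [h4, irr_conj])
    exact mul_ne_zero hxv hyv h3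
  obtain ⟨χ₀, hχ₀⟩ := gq_exists_nonlinear hab
  have hpos₀ := irr_degree_pos χ₀
  have hlt₀ := cm_deg_sq_lt χ₀ hχ₀
  obtain ⟨p, hp, hpV⟩ : ∃ p : ℕ, p.Prime ∧ ¬ cmV χ₀ p := by
    by_contra hno
    have hall : ∀ p : ℕ, p.Prime → cmV χ₀ p := by
      intro p hp
      by_contra hV
      exact hno ⟨p, hp, hV⟩
    have hdvd : Nat.card G ∣ charDegree (χ₀ : G → ℂ) := by
      rw [Nat.dvd_iff_prime_pow_dvd_dvd]
      intro q k hq hk
      exact cm_V_dvd χ₀ q hq (hall q hq) k hk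
    have hle := Nat.le_of_dvd hpos₀ hdvd
    nlinarith
  refine ⟨p, hp, ?_⟩
  intro χ hχ r hr hrp
  by_contra hV
  have h0 : ∀ s : ℕ, s.Prime → s ≠ p → cmV χ₀ s := by
    intro s hs hsp
    rcases hA χ₀ hχ₀ p s hp hs (Ne.symm hsp) with h1 | h1
    · exact absurd h1 hpV
    · exact h1
  have h1 : ∀ s : ℕ, s.Prime → s ≠ r → cmV χ s := by
    intro s hs hsr
    rcases hA χ hχ r s hr hs (Ne.symm hsr) with h1 | h1
    · exact absurd h1 hV
    · exact h1
  have hdvd : Nat.card G ∣ charDegree (χ₀ : G → ℂ) * charDegree (χ : G → ℂ) := by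
    rw [Nat.dvd_iff_prime_pow_dvd_dvd]
    intro q k hq hk
    by_cases hqp : q = p
    · exact Dvd.dvd.mul_left (cm_V_dvd χ q hq (h1 q hq (by rw [hqp]; exact Ne.symm hrp)) k hk) _
    · exact Dvd.dvd.mul_right (cm_V_dvd χ₀ q hq (h0 q hq hqp) k hk) _
  have hpos := irr_degree_pos χ
  have hlt := cm_deg_sq_lt χ hχ
  have hle := Nat.le_of_dvd (Nat.mul_pos hpos₀ hpos) hdvd
  nlinarith [Nat.mul_pos hpos₀ hpos]

/-- The group-theoretic structure: if the class of every nontrivial element of prime-power order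
for a prime `≠ p` is its full coset modulo `G'`, then `G` (nonabelian, not a `p`-group) has the
shape `A P`. -/
theorem cm_structure [Finite G] (p : ℕ) [hp : Fact p.Prime]
    (hcl : ∀ x : G, x ≠ 1 → (∃ r a : ℕ, r.Prime ∧ r ≠ p ∧ orderOf x = r ^ a) →
      ∀ z : G, x⁻¹ * z ∈ commutator G → IsConj x z)
    (hab : ¬ ∀ a b : G, a * b = b * a) (hpg : ¬ IsPGroup p G) :
    ∃ (P : Sylow p G) (A : Subgroup G), (P : Subgroup G).Normal ∧ IsCyclic ↥A ∧ A ≠ ⊥ ∧
      (Nat.card ↥A).Coprime p ∧ A ⊔ (P : Subgroup G) = ⊤ ∧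
      IsMulCommutative ↥((P : Subgroup G) ⊓ Subgroup.centralizer (A : Set G)) ∧
      (⁅A, (P : Subgroup G)⁆).Normal ∧
      ((P : Subgroup G) ⊓ Subgroup.centralizer (A : Set G)) ⊔ ⁅A, (P : Subgroup G)⁆ =
        (P : Subgroup G) ∧
      ((P : Subgroup G) ⊓ Subgroup.centralizer (A : Set G)) ⊓ ⁅A, (P : Subgroup G)⁆ = ⊥ ∧
      ∀ a ∈ A, a ≠ 1 → ∀ d ∈ ⁅A, (P : Subgroup G)⁆, a * d = d * a → d = 1 := by
  classical
  have hpp : p.Prime := hp.out
  obtain ⟨D, hDdef⟩ : ∃ D : Subgroup G, D = commutator G := ⟨_, rfl⟩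
  have hcm : ∀ x y : G, ⁅x, y⁆ ∈ D := fun x y => by
    rw [hDdef]
    exact Subgroup.commutator_mem_commutator (Subgroup.mem_top x) (Subgroup.mem_top y)
  have hDn : D.Normal := by rw [hDdef]; infer_instance
  rw [← hDdef] at hcl
  -- `D` is a `p`-group
  have hDp : IsPGroup p D := by
    have hcard : ∀ r : ℕ, r.Prime → r ∣ Nat.card D → r = p := by
      intro r hr hrd
      by_contra hne
      haveI : Fact r.Prime := ⟨hr⟩
      obtain ⟨g, hg⟩ := exists_prime_orderOf_dvd_card' r hrd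
      have hg1 : (g : G) ≠ 1 := by
        intro h1
        have : g = 1 := Subtype.ext h1
        rw [this, orderOf_one] at hg
        exact hr.one_lt.ne hg
      have hgo : orderOf (g : G) = r ^ 1 := by rw [pow_one, Subgroup.orderOf_coe, hg]
      have hc := hcl (g : G) hg1 ⟨r, 1, hr, hne, hgo⟩ 1 (by rw [mul_one]; exact D.inv_mem g.2)
      exact hg1 (isConj_one_left.mp hc)
    have := Nat.eq_prime_pow_of_unique_prime_dvd (Nat.card_pos (α := D)).ne'
      (fun {d} hd hdd => hcard d hd hdd)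
    exact IsPGroup.of_card this
  obtain ⟨P, hDP⟩ := hDp.exists_le_sylow
  have hPn : (P : Subgroup G).Normal := by
    refine ⟨fun u hu g => ?_⟩
    have h1 : g * u * g⁻¹ = ⁅g, u⁆ * u := by rw [commutatorElement_def]; group
    rw [h1]
    exact (P : Subgroup G).mul_mem (hDP (hcm g u)) hu
  haveI := hPn
  have hcop : (Nat.card (P : Subgroup G)).Coprime (P : Subgroup G).index := P.card_coprime_index
  obtain ⟨A, hA⟩ := Subgroup.exists_right_complement'_of_coprime hcop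
  have hdisj : (P : Subgroup G) ⊓ A = ⊥ := hA.isCompl.inf_eq_bot
  have hsup : A ⊔ (P : Subgroup G) = ⊤ := by rw [sup_comm]; exact hA.sup_eq_top
  have hcardA : Nat.card A = (P : Subgroup G).index := by
    have h1 := hA.card_mul_card
    have h2 := (P : Subgroup G).card_mul_index
    exact Nat.eq_of_mul_eq_mul_left Nat.card_pos (h1.trans h2.symm)
  have hAcop : (Nat.card A).Coprime p := by
    rw [hcardA]
    exact ((Nat.Prime.coprime_iff_not_dvd hpp).mpr P.not_dvd_index).symm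
  have hAP : ∀ x ∈ A, x ∈ (P : Subgroup G) → x = 1 := by
    intro x hxA hxP
    have : x ∈ (P : Subgroup G) ⊓ A := Subgroup.mem_inf.mpr ⟨hxP, hxA⟩
    rw [hdisj, Subgroup.mem_bot] at this
    exact this
  have hAc : ∀ a ∈ A, ∀ b ∈ A, a * b = b * a := by
    intro a ha b hb
    have h1 : ⁅a, b⁆ ∈ A := by
      rw [commutatorElement_def]
      exact A.mul_mem (A.mul_mem (A.mul_mem ha hb) (A.inv_mem ha)) (A.inv_mem hb)
    exact commutatorElement_eq_one_iff_mul_comm.mp (hAP _ h1 (hDP (hcm a b)))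
  have hAne : A ≠ ⊥ := by
    intro hA0
    apply hpg
    rw [hA0, bot_sup_eq] at hsup
    intro g
    have hg : g ∈ (P : Subgroup G) := by rw [hsup]; exact Subgroup.mem_top g
    obtain ⟨k, hk⟩ := P.isPGroup' ⟨g, hg⟩
    refine ⟨k, ?_⟩
    have := congrArg Subtype.val hk
    simpa using this
  have hPord : ∀ u ∈ (P : Subgroup G), ∃ k : ℕ, orderOf u = p ^ k := by
    intro u hu
    obtain ⟨k, hk⟩ := IsPGroup.iff_orderOf.mp P.isPGroup' ⟨u, hu⟩
    rw [Subgroup.orderOf_mk] at hk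
    exact ⟨k, hk⟩
  have hAord : ∀ a ∈ A, (orderOf a).Coprime p := by
    intro a ha
    exact Nat.Coprime.coprime_dvd_left (Subgroup.orderOf_dvd_natCard A ha) hAcop
  -- good elements
  have hgood : ∀ a ∈ A, a ≠ 1 →
      ∃ m : ℕ, a ^ m ≠ 1 ∧ ∀ z : G, (a ^ m)⁻¹ * z ∈ D → IsConj (a ^ m) z := by
    intro a ha ha1
    have hpos : 0 < orderOf a := orderOf_pos a
    have hne1 : orderOf a ≠ 1 := fun h => ha1 (orderOf_eq_one_iff.mp h)
    have hrp : ((orderOf a).minFac).Prime := Nat.minFac_prime hne1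
    have hrd : (orderOf a).minFac ∣ orderOf a := Nat.minFac_dvd _
    have ho : orderOf (a ^ (orderOf a / (orderOf a).minFac)) = (orderOf a).minFac :=
      orderOf_pow_orderOf_div hpos.ne' hrd
    have hb1 : a ^ (orderOf a / (orderOf a).minFac) ≠ 1 := by
      intro h1
      rw [h1, orderOf_one] at ho
      exact hrp.one_lt.ne ho
    refine ⟨orderOf a / (orderOf a).minFac, hb1, ?_⟩
    apply hcl _ hb1
    refine ⟨(orderOf a).minFac, 1, hrp, ?_, by rw [pow_one, ho]⟩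
    intro hrp'
    have h1 : (orderOf a).Coprime p := hAord a ha
    rw [← hrp'] at h1
    exact hrp.one_lt.ne' (Nat.Coprime.eq_one_of_dvd h1.symm hrd)
  have hfpf0 : ∀ b ∈ A, b ≠ 1 → (∀ z : G, b⁻¹ * z ∈ D → IsConj b z) →
      ∀ d ∈ D, b * d = d * b → d = 1 := by
    intro b hb hb1 hconj d hd hcomm
    have h1 : IsConj b (b * d) := hconj (b * d) (by rw [inv_mul_cancel_left]; exact hd)
    have h2 : orderOf b = orderOf (b * d) := by
      obtain ⟨c, hc⟩ := isConj_iff.mp h1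
      rw [← hc]
      exact (MulEquiv.orderOf_eq (MulAut.conj c) b).symm
    obtain ⟨k, hk⟩ := hPord d (hDP hd)
    have hcop : (orderOf b).Coprime (orderOf d) := by
      rw [hk]; exact Nat.Coprime.pow_right k (hAord b hb)
    have h3 : orderOf (b * d) = orderOf b * orderOf d :=
      (show Commute b d from hcomm).orderOf_mul_eq_mul_orderOf_of_coprime hcop
    rw [h3] at h2
    have h4 : orderOf d = 1 := by
      have hpos : 0 < orderOf b := orderOf_pos b
      have : orderOf b * 1 = orderOf b * orderOf d := by rw [mul_one]; exact h2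
      exact (Nat.eq_of_mul_eq_mul_left hpos this).symm
    exact orderOf_eq_one_iff.mp h4
  have hfpf : ∀ a ∈ A, a ≠ 1 → ∀ d ∈ D, a * d = d * a → d = 1 := by
    intro a ha ha1 d hd hcomm
    obtain ⟨m, hm1, hm⟩ := hgood a ha ha1
    refine hfpf0 (a ^ m) (A.pow_mem ha m) hm1 hm d hd ?_
    exact ((show Commute a d from hcomm).pow_left m).eq
  obtain ⟨a0, ha0, ha01⟩ : ∃ a ∈ A, a ≠ 1 := by
    obtain ⟨⟨a, ha⟩, ha1⟩ := Subgroup.ne_bot_iff_exists_ne_one.mp hAne
    exact ⟨a, ha, fun h => ha1 (Subtype.ext h)⟩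
  obtain ⟨m0, hb01, hb0⟩ := hgood a0 ha0 ha01
  obtain ⟨b, hbdef⟩ : ∃ b : G, b = a0 ^ m0 := ⟨_, rfl⟩
  rw [← hbdef] at hb01 hb0
  have hbA : b ∈ A := by rw [hbdef]; exact A.pow_mem ha0 m0
  have hdecomp : ∀ g : G, ∃ u ∈ (P : Subgroup G), ∃ a ∈ A, g = u * a := by
    intro g
    have hg : g ∈ (P : Subgroup G) ⊔ A := by rw [sup_comm, hsup]; exact Subgroup.mem_top g
    rw [← SetLike.mem_coe, Subgroup.normal_mul] at hg
    obtain ⟨u, hu, a, ha, rfl⟩ := Set.mem_mul.mp hg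
    exact ⟨u, hu, a, ha, rfl⟩
  have hDle : D ≤ ⁅A, (P : Subgroup G)⁆ := by
    intro c hc
    have h1 : IsConj b (b * c) := hb0 (b * c) (by rw [inv_mul_cancel_left]; exact hc)
    obtain ⟨g, hg⟩ := isConj_iff.mp h1
    obtain ⟨u, hu, a, ha, rfl⟩ := hdecomp g
    have h2 : a * b * a⁻¹ = b := by rw [hAc a ha b hbA, mul_inv_cancel_right]
    have h4 : u * b * u⁻¹ = b * c := by
      rw [← hg]
      calc u * b * u⁻¹ = u * (a * b * a⁻¹) * u⁻¹ := by rw [h2]
        _ = u * a * b * (u * a)⁻¹ := by group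
    have h3 : c = ⁅b⁻¹, u⁆ := by
      rw [commutatorElement_def]
      have h5 : b⁻¹ * u * b⁻¹⁻¹ * u⁻¹ = b⁻¹ * (u * b * u⁻¹) := by group
      rw [h5, h4, inv_mul_cancel_left]
    rw [h3]
    exact Subgroup.commutator_mem_commutator (A.inv_mem hbA) hu
  have hDeq : ⁅A, (P : Subgroup G)⁆ = D := by
    apply le_antisymm _ hDle
    rw [hDdef, commutator_def]
    exact Subgroup.commutator_mono le_top le_top
  have hinjD : ∀ d ∈ D, ∀ d' ∈ D, d⁻¹ * b * d = d'⁻¹ * b * d' → d = d' := by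
    intro d hd d' hd' he
    have h1 : b * (d' * d⁻¹) = (d' * d⁻¹) * b := by
      have h2 : d' * (d⁻¹ * b * d) * d⁻¹ = d' * (d'⁻¹ * b * d') * d⁻¹ := by rw [he]
      have e1 : d' * (d⁻¹ * b * d) * d⁻¹ = (d' * d⁻¹) * b := by group
      have e2 : d' * (d'⁻¹ * b * d') * d⁻¹ = b * (d' * d⁻¹) := by group
      rw [e1, e2] at h2
      exact h2.symm
    have h2 := hfpf0 b hbA hb01 hb0 (d' * d⁻¹) (D.mul_mem hd' (D.inv_mem hd)) h1
    exact (mul_inv_eq_one.mp h2).symm
  have hcm' : ∀ x : G, b⁻¹ * (x⁻¹ * b * x) ∈ D := by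
    intro x
    have h1 : b⁻¹ * (x⁻¹ * b * x) = ⁅b⁻¹, x⁻¹⁆ := by rw [commutatorElement_def]; group
    rw [h1]; exact hcm _ _
  let f : D → D := fun d => ⟨b⁻¹ * ((d : G)⁻¹ * b * d), hcm' d⟩
  have hfinj : Function.Injective f := by
    intro d d' he
    have h1 : b⁻¹ * ((d : G)⁻¹ * b * d) = b⁻¹ * ((d' : G)⁻¹ * b * d') := congrArg Subtype.val he
    exact Subtype.ext (hinjD d d.2 d' d'.2 (mul_left_cancel h1))
  have hfsurj : Function.Surjective f := Finite.surjective_of_injective hfinj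
  have hPdec : ∀ u ∈ (P : Subgroup G), ∃ c ∈ (P : Subgroup G), c * b = b * c ∧
      ∃ d ∈ D, u = c * d := by
    intro u hu
    obtain ⟨d, hd⟩ := hfsurj ⟨b⁻¹ * (u⁻¹ * b * u), hcm' u⟩
    have h1 : (d : G)⁻¹ * b * d = u⁻¹ * b * u := mul_left_cancel (congrArg Subtype.val hd)
    refine ⟨u * (d : G)⁻¹, (P : Subgroup G).mul_mem hu ((P : Subgroup G).inv_mem (hDP d.2)), ?_,
      d, d.2, by group⟩
    have h2 : u * ((d : G)⁻¹ * b * d) * (d : G)⁻¹ = u * (u⁻¹ * b * u) * (d : G)⁻¹ := by rw [h1]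
    have e1 : u * ((d : G)⁻¹ * b * d) * (d : G)⁻¹ = u * (d : G)⁻¹ * b := by group
    have e2 : u * (u⁻¹ * b * u) * (d : G)⁻¹ = b * (u * (d : G)⁻¹) := by group
    rw [e1, e2] at h2
    exact h2
  have hcent : ∀ c ∈ (P : Subgroup G), c * b = b * c →
      c ∈ Subgroup.centralizer (A : Set G) := by
    intro c hc hcb
    rw [Subgroup.mem_centralizer_iff]
    intro a ha
    have cb : Commute b c := hcb.symm
    have ca : Commute b a := (hAc a ha b hbA).symm
    have hcomm : Commute b ⁅c⁻¹, a⁻¹⁆ := by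
      rw [commutatorElement_def]
      exact ((cb.inv_right.mul_right ca.inv_right).mul_right cb.inv_right.inv_right).mul_right
        ca.inv_right.inv_right
    have h1 := hfpf0 b hbA hb01 hb0 _ (hcm _ _) hcomm.eq
    have h2 := commutatorElement_eq_one_iff_mul_comm.mp h1
    have h3 : (a * c)⁻¹ = (c * a)⁻¹ := by rw [mul_inv_rev, mul_inv_rev]; exact h2
    exact inv_injective h3
  have hsupP : ((P : Subgroup G) ⊓ Subgroup.centralizer (A : Set G)) ⊔ D = (P : Subgroup G) := by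
    apply le_antisymm
    · exact sup_le inf_le_left hDP
    · intro u hu
      obtain ⟨c, hc, hcb, d, hd, rfl⟩ := hPdec u hu
      exact Subgroup.mul_mem_sup (Subgroup.mem_inf.mpr ⟨hc, hcent c hc hcb⟩) hd
  have hinfP : ((P : Subgroup G) ⊓ Subgroup.centralizer (A : Set G)) ⊓ D = ⊥ := by
    rw [eq_bot_iff]
    intro x hx
    obtain ⟨hx1, hxD⟩ := Subgroup.mem_inf.mp hx
    obtain ⟨-, hxc⟩ := Subgroup.mem_inf.mp hx1
    rw [Subgroup.mem_bot]
    exact hfpf0 b hbA hb01 hb0 x hxD (Subgroup.mem_centralizer_iff.mp hxc b hbA)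
  have hCc : IsMulCommutative ↥((P : Subgroup G) ⊓ Subgroup.centralizer (A : Set G)) := by
    refine ⟨⟨fun x y => Subtype.ext ?_⟩⟩
    show (x : G) * y = y * x
    have hx := (Subgroup.mem_inf.mp x.2).2
    have hy := (Subgroup.mem_inf.mp y.2).2
    have h1 : ⁅(x : G), (y : G)⁆ ∈ Subgroup.centralizer (A : Set G) := by
      rw [commutatorElement_def]
      exact Subgroup.mul_mem _ (Subgroup.mul_mem _ (Subgroup.mul_mem _ hx hy)
        (Subgroup.inv_mem _ hx)) (Subgroup.inv_mem _ hy)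
    have h2 := hfpf0 b hbA hb01 hb0 _ (hcm _ _) (Subgroup.mem_centralizer_iff.mp h1 b hbA)
    exact commutatorElement_eq_one_iff_mul_comm.mp h2
  have hDne : D ≠ ⊥ := by
    intro hD
    apply hab
    intro x y
    have := hcm x y
    rw [hD, Subgroup.mem_bot] at this
    exact commutatorElement_eq_one_iff_mul_comm.mp this
  have hcyc : IsCyclic A := by
    by_contra hnc
    letI : CommGroup A :=
      { (inferInstance : Group A) with mul_comm := fun x y => Subtype.ext (hAc x x.2 y y.2) }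
    obtain ⟨r, hr, b₁, b₂, h₁, h₂, h₃, h₄⟩ := Helper10.exists_rank_two_of_not_cyclic hnc
    haveI : Fact r.Prime := ⟨hr⟩
    have hb₁r : (b₁ : G) ^ r = 1 := by have := congrArg Subtype.val h₁; simpa using this
    have hb₂r : (b₂ : G) ^ r = 1 := by have := congrArg Subtype.val h₂; simpa using this
    have hb₂1 : (b₂ : G) ≠ 1 := fun h => h₃ (Subtype.ext h)
    have hEA : ∀ x ∈ Subgroup.closure ({(b₁ : G), (b₂ : G)} : Set G), x ∈ A ∧ x ^ r = 1 := by
      intro x hx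
      induction hx using Subgroup.closure_induction with
      | mem x hx =>
        rcases hx with rfl | rfl
        · exact ⟨b₁.2, hb₁r⟩
        · exact ⟨b₂.2, hb₂r⟩
      | one => exact ⟨A.one_mem, one_pow r⟩
      | mul x y _ _ hx hy =>
        refine ⟨A.mul_mem hx.1 hy.1, ?_⟩
        rw [(show Commute x y from hAc x hx.1 y hy.1).mul_pow, hx.2, hy.2, one_mul]
      | inv x _ hx => exact ⟨A.inv_mem hx.1, by rw [inv_pow, hx.2, inv_one]⟩
    obtain ⟨E, hEdef⟩ : ∃ E : Subgroup G, E = Subgroup.closure ({(b₁ : G), (b₂ : G)} : Set G) :=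
      ⟨_, rfl⟩
    rw [← hEdef] at hEA
    have hEel : Cfsg.IsElementaryAbelian r E := by
      refine ⟨⟨⟨fun x y => Subtype.ext ?_⟩⟩, fun a ha => (hEA a ha).2⟩
      exact hAc x (hEA x x.2).1 y (hEA y y.2).1
    have hord₂ : orderOf (b₂ : G) = r := orderOf_eq_prime hb₂r hb₂1
    have hb₁not : (b₁ : G) ∉ Subgroup.zpowers (b₂ : G) := by
      intro hmem
      obtain ⟨k, hk⟩ := Subgroup.mem_zpowers_iff.mp hmem
      have hr0 : (r : ℤ) ≠ 0 := by exact_mod_cast hr.ne_zero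
      have hi : 0 ≤ (-k) % (r : ℤ) := Int.emod_nonneg _ hr0
      apply h₄ ((-k) % (r : ℤ)).toNat
      apply Subtype.ext
      show (b₁ : G) * (b₂ : G) ^ ((-k) % (r : ℤ)).toNat = 1
      rw [← hk, ← zpow_natCast, Int.toNat_of_nonneg hi, ← zpow_add]
      apply (orderOf_dvd_iff_zpow_eq_one).mp
      rw [hord₂, Int.emod_def]
      exact ⟨-((-k) / (r : ℤ)), by ring⟩
    have hEcard : r < Nat.card E := by
      by_contra hle
      rw [not_lt] at hle
      have hzle : Subgroup.zpowers (b₂ : G) ≤ E := by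
        rw [Subgroup.zpowers_le, hEdef]; exact Subgroup.subset_closure (by simp)
      have hzc : Nat.card (Subgroup.zpowers (b₂ : G)) = r := by rw [Nat.card_zpowers, hord₂]
      have heq : Subgroup.zpowers (b₂ : G) = E :=
        Subgroup.eq_of_le_of_card_ge hzle (by rw [hzc]; exact hle)
      apply hb₁not
      rw [heq, hEdef]
      exact Subgroup.subset_closure (by simp)
    exact Lead.no_rank_two_fpf D hDne E r hEel hEcard (fun h hh hh1 => by
      rw [eq_bot_iff]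
      intro d hd
      obtain ⟨hdD, hdc⟩ := Subgroup.mem_inf.mp hd
      rw [Subgroup.mem_bot]
      exact hfpf h (hEA h hh).1 hh1 d hdD
        (Subgroup.mem_centralizer_iff.mp hdc h (Set.mem_singleton h)))
  refine ⟨P, A, hPn, hcyc, hAne, hAcop, hsup, hCc, ?_, ?_, ?_, ?_⟩
  · rw [hDeq]; exact hDn
  · rw [hDeq]; exact hsupP
  · rw [hDeq]; exact hinfP
  · rw [hDeq]; exact hfpf

/-- Forward direction of S4756 in the nonabelian, non-`p`-group case. -/
theorem cm_forward [Finite G]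
    (h : ∀ (x y : G) (χ : IrrCharacter G), x ≠ 1 → y ≠ 1 →
      (∃ p q a b : ℕ, p.Prime ∧ q.Prime ∧ p ≠ q ∧ orderOf x = p ^ a ∧ orderOf y = q ^ b) →
      (χ : G → ℂ) (x * y) = (χ : G → ℂ) x * (χ : G → ℂ) y)
    (hab : ¬ ∀ a b : G, a * b = b * a) (hpg : ¬ ∃ p : ℕ, p.Prime ∧ IsPGroup p G) :
    ∃ (p : ℕ) (_ : Fact p.Prime) (P : Sylow p G) (A : Subgroup G), (P : Subgroup G).Normal ∧
      IsCyclic ↥A ∧ A ≠ ⊥ ∧
      (Nat.card ↥A).Coprime p ∧ A ⊔ (P : Subgroup G) = ⊤ ∧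
      IsMulCommutative ↥((P : Subgroup G) ⊓ Subgroup.centralizer (A : Set G)) ∧
      (⁅A, (P : Subgroup G)⁆).Normal ∧
      ((P : Subgroup G) ⊓ Subgroup.centralizer (A : Set G)) ⊔ ⁅A, (P : Subgroup G)⁆ =
        (P : Subgroup G) ∧
      ((P : Subgroup G) ⊓ Subgroup.centralizer (A : Set G)) ⊓ ⁅A, (P : Subgroup G)⁆ = ⊥ ∧
      ∀ a ∈ A, a ≠ 1 → ∀ d ∈ ⁅A, (P : Subgroup G)⁆, a * d = d * a → d = 1 := by
  obtain ⟨p, hp, hvan⟩ := cm_exists_prime h hab
  haveI hf : Fact p.Prime := ⟨hp⟩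
  have hcl : ∀ x : G, x ≠ 1 → (∃ r a : ℕ, r.Prime ∧ r ≠ p ∧ orderOf x = r ^ a) →
      ∀ z : G, x⁻¹ * z ∈ commutator G → IsConj x z := by
    intro x hx ⟨r, a, hr, hrp, ho⟩ z hz
    refine isConj_of_nonlinear_vanish x (fun χ hχ => ?_) z hz
    apply hvan χ _ r hr hrp x hx ⟨a, ho⟩
    intro hd
    apply hχ
    rw [irr_one_eq_degree, hd, Nat.cast_one]
  obtain ⟨P, A, rest⟩ := cm_structure p hcl hab (fun hG => hpg ⟨p, hp, hG⟩)
  exact ⟨p, hf, P, A, rest⟩

/-- If `x ≠ 1` has order both a power of `p` and a power of `q`, then `q = p`. -/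
theorem cm_prime_eq {x : G} (hx : x ≠ 1) {p q k a : ℕ} (hp : p.Prime) (hq : q.Prime)
    (h1 : orderOf x = p ^ k) (h2 : orderOf x = q ^ a) : q = p := by
  have ha : a ≠ 0 := by
    intro ha
    rw [ha, pow_zero] at h2
    exact hx (orderOf_eq_one_iff.mp h2)
  have h3 : q ∣ p ^ k := by
    rw [← h1, h2]
    exact dvd_pow_self q ha
  exact (Nat.prime_dvd_prime_iff_eq hq hp).mp (hq.dvd_of_dvd_pow h3)

/-- Backward direction of S4756 in the structured case. -/
theorem cm_backward [Finite G] (p : ℕ) [hp : Fact p.Prime] (P : Sylow p G) (A : Subgroup G)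
    (hPn : (P : Subgroup G).Normal) (hcyc : IsCyclic ↥A) (hAcop : (Nat.card ↥A).Coprime p)
    (hsup : A ⊔ (P : Subgroup G) = ⊤)
    (hCc : IsMulCommutative ↥((P : Subgroup G) ⊓ Subgroup.centralizer (A : Set G)))
    (hDn : (⁅A, (P : Subgroup G)⁆).Normal)
    (hsupP : ((P : Subgroup G) ⊓ Subgroup.centralizer (A : Set G)) ⊔ ⁅A, (P : Subgroup G)⁆ =
      (P : Subgroup G))
    (hfpf : ∀ a ∈ A, a ≠ 1 → ∀ d ∈ ⁅A, (P : Subgroup G)⁆, a * d = d * a → d = 1)
    (x y : G) (χ : IrrCharacter G) (hx : x ≠ 1) (hy : y ≠ 1)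
    (hxy : ∃ p q a b : ℕ, p.Prime ∧ q.Prime ∧ p ≠ q ∧ orderOf x = p ^ a ∧ orderOf y = q ^ b) :
    (χ : G → ℂ) (x * y) = (χ : G → ℂ) x * (χ : G → ℂ) y := by
  classical
  have hpp : p.Prime := hp.out
  by_cases hlin : charDegree (χ : G → ℂ) = 1
  · exact irr_linear_mul χ (by rw [irr_one_eq_degree, hlin, Nat.cast_one]) x y
  haveI := hPn
  haveI := hDn
  obtain ⟨D, hDdef⟩ : ∃ D : Subgroup G, D = ⁅A, (P : Subgroup G)⁆ := ⟨_, rfl⟩
  rw [← hDdef] at hsupP hfpf
  have hDn' : D.Normal := by rw [hDdef]; exact hDn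
  haveI := hDn'
  have hPord : ∀ u ∈ (P : Subgroup G), ∃ k : ℕ, orderOf u = p ^ k := by
    intro u hu
    obtain ⟨k, hk⟩ := IsPGroup.iff_orderOf.mp P.isPGroup' ⟨u, hu⟩
    rw [Subgroup.orderOf_mk] at hk
    exact ⟨k, hk⟩
  have hAord : ∀ a ∈ A, (orderOf a).Coprime p := by
    intro a ha
    exact Nat.Coprime.coprime_dvd_left (Subgroup.orderOf_dvd_natCard A ha) hAcop
  have hAc : ∀ a ∈ A, ∀ b ∈ A, a * b = b * a := by
    intro a ha b hb
    letI := IsCyclic.commGroup (α := A)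
    have := mul_comm (⟨a, ha⟩ : A) ⟨b, hb⟩
    exact congrArg Subtype.val this
  have hDP : D ≤ (P : Subgroup G) := by rw [← hsupP]; exact le_sup_right
  -- decomposition
  have hdec : ∀ g : G, ∃ a ∈ A, ∃ c ∈ (P : Subgroup G) ⊓ Subgroup.centralizer (A : Set G),
      ∃ d ∈ D, g = a * c * d := by
    intro g
    have hg : g ∈ A ⊔ (P : Subgroup G) := by rw [hsup]; exact Subgroup.mem_top g
    rw [← SetLike.mem_coe, Subgroup.mul_normal] at hg
    obtain ⟨a, ha, u, hu, rfl⟩ := Set.mem_mul.mp hg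
    have hu' : u ∈ ((P : Subgroup G) ⊓ Subgroup.centralizer (A : Set G)) ⊔ D := by
      rw [hsupP]; exact hu
    rw [← SetLike.mem_coe, Subgroup.mul_normal] at hu'
    obtain ⟨c, hc, d, hd, rfl⟩ := Set.mem_mul.mp hu'
    exact ⟨a, ha, c, hc, d, hd, by group⟩
  -- G' ≤ D
  have hGD : ∀ g h : G, g * h * g⁻¹ * h⁻¹ ∈ D := by
    intro g h
    obtain ⟨a, ha, c, hc, d, hd, rfl⟩ := hdec g
    obtain ⟨a', ha', c', hc', d', hd', rfl⟩ := hdec h
    have hcA := (Subgroup.mem_inf.mp hc).2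
    have hcA' := (Subgroup.mem_inf.mp hc').2
    rw [← QuotientGroup.eq_one_iff]
    have e1 : ((a * c * d : G) : G ⧸ D) = ((a * c : G) : G ⧸ D) := by
      rw [QuotientGroup.mk_mul D (a * c) d, (QuotientGroup.eq_one_iff d).mpr hd, mul_one]
    have e2 : ((a' * c' * d' : G) : G ⧸ D) = ((a' * c' : G) : G ⧸ D) := by
      rw [QuotientGroup.mk_mul D (a' * c') d', (QuotientGroup.eq_one_iff d').mpr hd', mul_one]
    rw [QuotientGroup.mk_mul, QuotientGroup.mk_mul, QuotientGroup.mk_mul, QuotientGroup.mk_inv,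
      QuotientGroup.mk_inv, e1, e2, ← QuotientGroup.mk_inv, ← QuotientGroup.mk_inv,
      ← QuotientGroup.mk_mul, ← QuotientGroup.mk_mul, ← QuotientGroup.mk_mul]
    have h1 : Commute a a' := hAc a ha a' ha'
    have h2 : Commute a c' := (Subgroup.mem_centralizer_iff.mp hcA' a ha)
    have h3 : Commute c a' := (Subgroup.mem_centralizer_iff.mp hcA a' ha').symm
    have h4 : Commute c c' := by
      have := hCc.is_comm.comm (⟨c, hc⟩ : ↥((P : Subgroup G) ⊓ Subgroup.centralizer (A : Set G)))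
        ⟨c', hc'⟩
      exact congrArg Subtype.val this
    have h5 : Commute (a * c) (a' * c') := (h1.mul_right h2).mul_left (h3.mul_right h4)
    have h6 : a * c * (a' * c') * (a * c)⁻¹ * (a' * c')⁻¹ = 1 := by
      rw [h5.eq, mul_inv_cancel_right, mul_inv_cancel]
    rw [h6]
    rfl
  -- conjugacy of `a c` with `a c n`
  have hconj : ∀ a ∈ A, a ≠ 1 → ∀ c ∈ (P : Subgroup G) ⊓ Subgroup.centralizer (A : Set G),
      ∀ n ∈ D, IsConj (a * c) (a * c * n) := by
    intro a ha ha1 c hc n hn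
    have hcP := (Subgroup.mem_inf.mp hc).1
    have hcA := (Subgroup.mem_inf.mp hc).2
    have hac : Commute a c := (Subgroup.mem_centralizer_iff.mp hcA a ha)
    obtain ⟨k, hk⟩ := hPord c hcP
    have hpow : (a * c) ^ (p ^ k) = a ^ (p ^ k) := by
      rw [hac.mul_pow, ← hk, pow_orderOf_eq_one, mul_one]
    have hapow : a ^ (p ^ k) ≠ 1 := by
      intro h1
      have h2 : orderOf a ∣ p ^ k := orderOf_dvd_of_pow_eq_one h1
      have h3 : (orderOf a).Coprime (p ^ k) := Nat.Coprime.pow_right k (hAord a ha)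
      exact ha1 (orderOf_eq_one_iff.mp (Nat.Coprime.eq_one_of_dvd h3 h2))
    have hfix : ∀ d ∈ D, (a * c) * d = d * (a * c) → d = 1 := by
      intro d hd hcomm
      apply hfpf (a ^ (p ^ k)) (A.pow_mem ha _) hapow d hd
      rw [← hpow]
      exact ((show Commute (a * c) d from hcomm).pow_left _).eq
    have hmem : ∀ d ∈ D, (a * c)⁻¹ * (d⁻¹ * (a * c) * d) ∈ D := by
      intro d hd
      have h1 : (a * c)⁻¹ * (d⁻¹ * (a * c) * d) = ((a * c)⁻¹ * d⁻¹ * (a * c)⁻¹⁻¹) * d := by group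
      rw [h1]
      exact D.mul_mem (hDn'.conj_mem _ (D.inv_mem hd) _) hd
    let f : D → D := fun d => ⟨(a * c)⁻¹ * ((d : G)⁻¹ * (a * c) * d), hmem d d.2⟩
    have hfinj : Function.Injective f := by
      intro d d' he
      have h1 : (a * c)⁻¹ * ((d : G)⁻¹ * (a * c) * d) = (a * c)⁻¹ * ((d' : G)⁻¹ * (a * c) * d') :=
        congrArg Subtype.val he
      have he' : (d : G)⁻¹ * (a * c) * d = (d' : G)⁻¹ * (a * c) * d' := mul_left_cancel h1
      have h2 : (a * c) * ((d' : G) * (d : G)⁻¹) = ((d' : G) * (d : G)⁻¹) * (a * c) := by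
        have h3 : (d' : G) * ((d : G)⁻¹ * (a * c) * d) * (d : G)⁻¹ =
            (d' : G) * ((d' : G)⁻¹ * (a * c) * d') * (d : G)⁻¹ := by rw [he']
        have e1 : (d' : G) * ((d : G)⁻¹ * (a * c) * d) * (d : G)⁻¹ =
            ((d' : G) * (d : G)⁻¹) * (a * c) := by group
        have e2 : (d' : G) * ((d' : G)⁻¹ * (a * c) * d') * (d : G)⁻¹ =
            (a * c) * ((d' : G) * (d : G)⁻¹) := by group
        rw [e1, e2] at h3
        exact h3.symm
      have h4 := hfix _ (D.mul_mem d'.2 (D.inv_mem d.2)) h2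
      exact Subtype.ext (mul_inv_eq_one.mp h4).symm
    have hfsurj : Function.Surjective f := Finite.surjective_of_injective hfinj
    obtain ⟨d, hd⟩ := hfsurj ⟨n, hn⟩
    have h1 : (a * c)⁻¹ * ((d : G)⁻¹ * (a * c) * d) = n := congrArg Subtype.val hd
    rw [isConj_iff]
    refine ⟨(d : G)⁻¹, ?_⟩
    rw [← h1, inv_inv]
    group
  -- vanishing off `P`
  have hvan : ∀ g : G, g ∉ (P : Subgroup G) → (χ : G → ℂ) g = 0 := by
    intro g hg
    obtain ⟨a, ha, c, hc, d, hd, rfl⟩ := hdec g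
    have ha1 : a ≠ 1 := by
      intro ha1
      apply hg
      rw [ha1, one_mul]
      exact (P : Subgroup G).mul_mem (Subgroup.mem_inf.mp hc).1 (hDP hd)
    rw [← char_of_isConj (irr_isCharacter χ) (hconj a ha ha1 c hc d hd)]
    exact cm_vanish_of_conj χ D hGD (a * c) (hconj a ha ha1 c hc) hlin
  obtain ⟨p₁, q₁, a, b, hp₁, hq₁, hne, hox, hoy⟩ := hxy
  have hnotboth : ¬ (x ∈ (P : Subgroup G) ∧ y ∈ (P : Subgroup G)) := by
    rintro ⟨hxP, hyP⟩
    obtain ⟨k, hk⟩ := hPord x hxP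
    obtain ⟨l, hl⟩ := hPord y hyP
    have e1 := cm_prime_eq hx hpp hp₁ hk hox
    have e2 := cm_prime_eq hy hpp hq₁ hl hoy
    exact hne (e1.trans e2.symm)
  have hprod : x * y ∉ (P : Subgroup G) := by
    intro hxyP
    by_cases hxP : x ∈ (P : Subgroup G)
    · apply hnotboth
      refine ⟨hxP, ?_⟩
      have : y = x⁻¹ * (x * y) := by group
      rw [this]
      exact (P : Subgroup G).mul_mem ((P : Subgroup G).inv_mem hxP) hxyP
    · apply hxP
      rw [← QuotientGroup.eq_one_iff]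
      have h1 : ((x : G) : G ⧸ (P : Subgroup G)) * ((y : G) : G ⧸ (P : Subgroup G)) = 1 := by
        rw [← QuotientGroup.mk_mul]
        exact (QuotientGroup.eq_one_iff _).mpr hxyP
      have h2 : ((x : G) : G ⧸ (P : Subgroup G)) ^ (p₁ ^ a) = 1 := by
        rw [← QuotientGroup.mk_pow (P : Subgroup G), ← hox, pow_orderOf_eq_one]
        rfl
      have h3 : ((x : G) : G ⧸ (P : Subgroup G)) ^ (q₁ ^ b) = 1 := by
        rw [eq_inv_of_mul_eq_one_left h1, inv_pow, ← QuotientGroup.mk_pow (P : Subgroup G), ← hoy,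
          pow_orderOf_eq_one]
        simp
      have h4 : orderOf ((x : G) : G ⧸ (P : Subgroup G)) ∣ p₁ ^ a := orderOf_dvd_of_pow_eq_one h2
      have h5 : orderOf ((x : G) : G ⧸ (P : Subgroup G)) ∣ q₁ ^ b := orderOf_dvd_of_pow_eq_one h3
      have hcop : (p₁ ^ a).Coprime (q₁ ^ b) :=
        Nat.Coprime.pow a b ((Nat.coprime_primes hp₁ hq₁).mpr hne)
      exact orderOf_eq_one_iff.mp
        (Nat.Coprime.eq_one_of_dvd (Nat.Coprime.coprime_dvd_left h4 hcop) h5)
  rw [hvan _ hprod]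
  by_cases hxP : x ∈ (P : Subgroup G)
  · have hyP : y ∉ (P : Subgroup G) := fun hyP => hnotboth ⟨hxP, hyP⟩
    rw [hvan y hyP, mul_zero]
  · rw [hvan x hxP, zero_mul]

end Cfsg.Agent.Helper25
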