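import Mathlib
import Cfsg.Agent.Helper24.Ito
import Cfsg.Agent.Helper2.Cliff
import Cfsg.Agent.Helper13.PSolv
import Cfsg.Agent.Helper10.PComp
import Cfsg.Agent.Helper17.PReduced
import Cfsg.Agent.Helper22.ConjClass
import Cfsg.Agent.Helper7.DetChar
import Cfsg.Agent.Helper7.LinChar

/-!
# Derived length of a Sylow `p`-subgroup of a `p`-solvable group (helper25)

If `G` is `p`-solvable and `n` is the number of irreducible characters of degree divisible by
`p`, then the `(n+1)`-st derived subgroup of every `p`-subgroup of `G` is trivial.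
-/

set_option autoImplicit false

namespace Cfsg.Agent.Helper25

open Cfsg

universe u

section DerLen

variable {G : Type u} [Group G]

/-- Derived series of a subgroup, computed inside the ambient group. -/
def dlSer (P : Subgroup G) : ℕ → Subgroup G
  | 0 => P
  | (k + 1) => ⁅dlSer P k, dlSer P k⁆

theorem dlSer_zero (P : Subgroup G) : dlSer P 0 = P := rfl

theorem dlSer_succ (P : Subgroup G) (k : ℕ) :
    dlSer P (k + 1) = ⁅dlSer P k, dlSer P k⁆ := rfl

theorem dlSer_map {H : Type*} [Group H] (f : G →* H) (P : Subgroup G) (k : ℕ) :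
    (dlSer P k).map f = dlSer (P.map f) k := by
  induction k with
  | zero => rfl
  | succ k ih => rw [dlSer_succ, dlSer_succ, Subgroup.map_commutator, ih]

theorem dlSer_succ_le (P : Subgroup G) (k : ℕ) : dlSer P (k + 1) ≤ dlSer P k := by
  rw [dlSer_succ, Subgroup.commutator_le]
  intro a ha b hb
  rw [commutatorElement_def]
  exact (dlSer P k).mul_mem ((dlSer P k).mul_mem ((dlSer P k).mul_mem ha hb)
    ((dlSer P k).inv_mem ha)) ((dlSer P k).inv_mem hb)

theorem dlSer_antitone (P : Subgroup G) {k m : ℕ} (h : k ≤ m) : dlSer P m ≤ dlSer P k := by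
  induction h with
  | refl => exact le_rfl
  | step _ ih => exact (dlSer_succ_le P _).trans ih

theorem dlSer_bot (k : ℕ) : dlSer (⊥ : Subgroup G) k = ⊥ :=
  eq_bot_iff.mpr (dlSer_antitone ⊥ (Nat.zero_le k))

theorem dlSer_eq_map (P : Subgroup G) (k : ℕ) :
    (derivedSeries ↥P k).map P.subtype = dlSer P k := by
  induction k with
  | zero =>
    rw [derivedSeries_zero, dlSer_zero, ← MonoidHom.range_eq_map, Subgroup.range_subtype]
  | succ k ih => rw [derivedSeries_succ, Subgroup.map_commutator, ih, dlSer_succ]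

theorem dlSer_succ_eq_bot (P A : Subgroup G) (k : ℕ) (h : dlSer P k ≤ A)
    (hA : ∀ a ∈ A, ∀ b ∈ A, a * b = b * a) : dlSer P (k + 1) = ⊥ := by
  rw [dlSer_succ, eq_bot_iff, Subgroup.commutator_le]
  intro a ha b hb
  rw [Subgroup.mem_bot, commutatorElement_def, hA a (h ha) b (h hb)]
  group

theorem dlSer_le_of_map_eq_bot (N : Subgroup G) [N.Normal] (P : Subgroup G) (k : ℕ)
    (h : dlSer (P.map (QuotientGroup.mk' N)) k = ⊥) : dlSer P k ≤ N := by
  rw [← dlSer_map, Subgroup.map_eq_bot_iff, QuotientGroup.ker_mk'] at h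
  exact h

/-- The number of irreducible characters of degree divisible by `p`. -/
noncomputable def dlNum (p : ℕ) (G : Type u) [Group G] : ℕ :=
  Nat.card {χ : IrrCharacter G // p ∣ charDegree (χ : G → ℂ)}

theorem dlNum_quot_lt [Finite G] (p : ℕ) (N : Subgroup G) [N.Normal] (χ₀ : IrrCharacter G)
    (hχ₀ : p ∣ charDegree (χ₀ : G → ℂ)) (x : G) (hx : x ∈ N)
    (hne : (χ₀ : G → ℂ) x ≠ (χ₀ : G → ℂ) 1) : dlNum p (G ⧸ N) + 1 ≤ dlNum p G := by
  classical
  unfold dlNum
  letI : Fintype {χ : IrrCharacter G // p ∣ charDegree (χ : G → ℂ)} := Fintype.ofFinite _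
  letI : Fintype {χ : IrrCharacter (G ⧸ N) // p ∣ charDegree (χ : G ⧸ N → ℂ)} :=
    Fintype.ofFinite _
  rw [Nat.card_eq_fintype_card, Nat.card_eq_fintype_card]
  apply Fintype.card_lt_of_injective_of_notMem
    (fun χ : {χ : IrrCharacter (G ⧸ N) // p ∣ charDegree (χ : G ⧸ N → ℂ)} =>
      (⟨irrComp χ.1 (QuotientGroup.mk' N) (QuotientGroup.mk'_surjective N), by
        rw [charDegree_irrComp]; exact χ.2⟩ :
        {χ : IrrCharacter G // p ∣ charDegree (χ : G → ℂ)}))
    (b := ⟨χ₀, hχ₀⟩)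
  · intro χ ψ h
    apply Subtype.ext
    apply Subtype.ext
    funext q
    obtain ⟨g, rfl⟩ := QuotientGroup.mk'_surjective N q
    have h1 := congrArg (fun ξ : {χ : IrrCharacter G // p ∣ charDegree (χ : G → ℂ)} =>
      (ξ.1 : G → ℂ) g) h
    simpa using h1
  · rintro ⟨χ, hχ⟩
    apply hne
    have h1 := congrArg (fun ξ : {χ : IrrCharacter G // p ∣ charDegree (χ : G → ℂ)} =>
      (ξ.1 : G → ℂ)) hχ
    simp only at h1
    rw [← h1, irrComp_apply, irrComp_apply, map_one,
      show (QuotientGroup.mk' N) x = 1 from (QuotientGroup.eq_one_iff x).mpr hx]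

theorem dlNum_quot_le [Finite G] (p : ℕ) (N : Subgroup G) [N.Normal] :
    dlNum p (G ⧸ N) ≤ dlNum p G := by
  classical
  unfold dlNum
  apply Nat.card_le_card_of_injective
    (fun χ : {χ : IrrCharacter (G ⧸ N) // p ∣ charDegree (χ : G ⧸ N → ℂ)} =>
      (⟨irrComp χ.1 (QuotientGroup.mk' N) (QuotientGroup.mk'_surjective N), by
        rw [charDegree_irrComp]; exact χ.2⟩ :
        {χ : IrrCharacter G // p ∣ charDegree (χ : G → ℂ)}))
  intro χ ψ h
  apply Subtype.ext
  apply Subtype.ext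
  funext q
  obtain ⟨g, rfl⟩ := QuotientGroup.mk'_surjective N q
  have h1 := congrArg (fun ξ : {χ : IrrCharacter G // p ∣ charDegree (χ : G → ℂ)} =>
    (ξ.1 : G → ℂ) g) h
  simpa using h1

/-- If `χ(z) = χ(1)` then every constituent `θ` of the restriction of `χ` to a subgroup containing
`z` satisfies `θ(z) = θ(1)`. -/
theorem dl_ker_restrict [Fintype G] (H : Subgroup G) [Fintype H] (χ : IrrCharacter G)
    (θ : IrrCharacter H)
    (h : classInner (fun n : H => (χ : G → ℂ) n) (θ : H → ℂ) ≠ 0) (z : H)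
    (hz : (χ : G → ℂ) z = (χ : G → ℂ) 1) : (θ : H → ℂ) z = (θ : H → ℂ) 1 := by
  classical
  have hχH : IsCharacter H (fun n : H => (χ : G → ℂ) n) :=
    Helper2.isCharacter_restrict H (Helper2.isCharacter_of_isIrrCharacter χ.2)
  have hdec := Helper2.classFun_eq_sum_classInner (Helper2.isClassFunction_of_isCharacter hχH)
  have ha : ∀ ξ : IrrCharacter H, ∃ a : ℕ,
      classInner (fun n : H => (χ : G → ℂ) n) (ξ : H → ℂ) = a := fun ξ =>
    Helper2.classInner_char_nat hχH (Helper2.isCharacter_of_isIrrCharacter ξ.2)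
  choose a ha using ha
  have hev : ∀ y : H, (χ : G → ℂ) y = ∑ ξ : IrrCharacter H, (a ξ : ℂ) * (ξ : H → ℂ) y := by
    intro y
    have h1 := congrFun hdec y
    simp only [Finset.sum_apply, Pi.smul_apply, smul_eq_mul] at h1
    rw [h1]
    exact Finset.sum_congr rfl (fun ξ _ => by rw [ha ξ])
  have hsum : ∑ ξ : IrrCharacter H, (a ξ : ℝ) *
      ((charDegree (ξ : H → ℂ) : ℝ) - ((ξ : H → ℂ) z).re) = 0 := by
    have h1 : ∑ ξ : IrrCharacter H, (a ξ : ℂ) * ((ξ : H → ℂ) 1 - (ξ : H → ℂ) z) = 0 := by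
      simp only [mul_sub, Finset.sum_sub_distrib]
      rw [← hev z, ← hev 1, hz]
      exact sub_self _
    have h2 := congrArg Complex.re h1
    rw [Complex.re_sum, Complex.zero_re] at h2
    rw [← h2]
    apply Finset.sum_congr rfl
    intro ξ _
    rw [irr_one_eq_degree ξ]
    simp
  have hle : ∀ ξ : IrrCharacter H, ((ξ : H → ℂ) z).re ≤ (charDegree (ξ : H → ℂ) : ℝ) := by
    intro ξ
    have h1 := irr_norm_le ξ z
    rw [irr_one_eq_degree ξ] at h1
    have h2 : ‖((charDegree (ξ : H → ℂ) : ℕ) : ℂ)‖ = (charDegree (ξ : H → ℂ) : ℝ) := by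
      simp
    rw [h2] at h1
    exact (Complex.re_le_norm _).trans h1
  have hnn : ∀ ξ ∈ (Finset.univ : Finset (IrrCharacter H)), 0 ≤ (a ξ : ℝ) *
      ((charDegree (ξ : H → ℂ) : ℝ) - ((ξ : H → ℂ) z).re) := fun ξ _ =>
    mul_nonneg (Nat.cast_nonneg _) (sub_nonneg.mpr (hle ξ))
  have h3 := (Finset.sum_eq_zero_iff_of_nonneg hnn).mp hsum θ (Finset.mem_univ θ)
  have haθ : (a θ : ℝ) ≠ 0 := by
    intro h0
    apply h
    rw [ha θ]
    have : a θ = 0 := by exact_mod_cast h0
    rw [this, Nat.cast_zero]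
  have hre : ((θ : H → ℂ) z).re = (charDegree (θ : H → ℂ) : ℝ) := by
    rcases mul_eq_zero.mp h3 with h4 | h4
    · exact absurd h4 haθ
    · linarith
  have hnorm := irr_norm_le θ z
  rw [irr_one_eq_degree θ] at hnorm
  have h2 : ‖((charDegree (θ : H → ℂ) : ℕ) : ℂ)‖ = (charDegree (θ : H → ℂ) : ℝ) := by
    simp
  rw [h2] at hnorm
  have him : ((θ : H → ℂ) z).im = 0 := by
    have h5 : ‖(θ : H → ℂ) z‖ ^ 2 = ((θ : H → ℂ) z).re ^ 2 + ((θ : H → ℂ) z).im ^ 2 := by
      rw [Complex.sq_norm, Complex.normSq_apply]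
      ring
    have h6 : ‖(θ : H → ℂ) z‖ ^ 2 ≤ (charDegree (θ : H → ℂ) : ℝ) ^ 2 :=
      pow_le_pow_left₀ (norm_nonneg _) hnorm 2
    rw [h5, hre] at h6
    have h7 : ((θ : H → ℂ) z).im ^ 2 ≤ 0 := by linarith
    have h8 : 0 ≤ ((θ : H → ℂ) z).im ^ 2 := sq_nonneg _
    have h9 : ((θ : H → ℂ) z).im ^ 2 = 0 := le_antisymm h7 h8
    exact pow_eq_zero_iff (two_ne_zero) |>.mp h9
  rw [irr_one_eq_degree θ]
  apply Complex.ext
  · rw [hre]; simp
  · rw [him]; simp

/-- A nonabelian finite `p`-group has a nonlinear irreducible character that is nontrivial on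
the centre. -/
theorem dl_exists_nonlinear [Finite G] (p : ℕ) [Fact p.Prime] (hG : IsPGroup p G)
    (hna : ¬ ∀ a b : G, a * b = b * a) :
    ∃ θ : IrrCharacter G, ∃ z ∈ Subgroup.center G, charDegree (θ : G → ℂ) ≠ 1 ∧
      (θ : G → ℂ) z ≠ (θ : G → ℂ) 1 := by
  classical
  letI := Fintype.ofFinite G
  haveI : Nontrivial G := by
    by_contra hnt
    rw [not_nontrivial_iff_subsingleton] at hnt
    exact hna (fun a b => Subsingleton.elim _ _)
  haveI := hG.center_nontrivial
  obtain ⟨⟨z, hzc⟩, hz1⟩ := exists_ne (1 : Subgroup.center G)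
  have hz : z ≠ 1 := fun h => hz1 (Subtype.ext h)
  -- a character nontrivial at z
  have hex : ∃ θ₀ : IrrCharacter G, (θ₀ : G → ℂ) z ≠ (θ₀ : G → ℂ) 1 := by
    by_contra hall
    push_neg at hall
    have h1 := second_orthogonality (G := G) z 1
    have h2 := second_orthogonality (G := G) 1 1
    rw [if_neg (by rw [isConj_one_left]; exact hz)] at h1
    rw [if_pos (IsConj.refl 1)] at h2
    have h3 : ∑ χ : IrrCharacter G, (χ : G → ℂ) z * (χ : G → ℂ) 1⁻¹ =
        ∑ χ : IrrCharacter G, (χ : G → ℂ) 1 * (χ : G → ℂ) 1⁻¹ :=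
      Finset.sum_congr rfl (fun χ _ => by rw [hall χ])
    rw [h1, h2] at h3
    have h4 : (Nat.card (Subgroup.centralizer ({1} : Set G)) : ℂ) ≠ 0 :=
      Nat.cast_ne_zero.mpr Nat.card_pos.ne'
    exact h4 h3.symm
  obtain ⟨θ₀, hθ₀⟩ := hex
  by_cases h1 : charDegree (θ₀ : G → ℂ) = 1
  · have h11 : (θ₀ : G → ℂ) 1 = 1 := by rw [irr_one_eq_degree, h1, Nat.cast_one]
    obtain ⟨f, hf⟩ := Cfsg.Agent.Helper7.exists_hom_of_linear (θ₀ : G → ℂ)
      (irr_isCharacter θ₀) h11
    have hfz : ((f z : ℂˣ) : ℂ) ≠ 1 := by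
      have := hθ₀
      rw [h11, hf] at this
      exact this
    obtain ⟨θ₁, hθ₁⟩ : ∃ θ₁ : IrrCharacter G, charDegree (θ₁ : G → ℂ) ≠ 1 := by
      by_contra hall
      push_neg at hall
      exact hna (Cfsg.Agent.Helper24.comm_of_all_linear hall)
    by_cases h2 : (θ₁ : G → ℂ) z = (θ₁ : G → ℂ) 1
    · refine ⟨⟨fun g => ((f g : ℂˣ) : ℂ) * (θ₁ : G → ℂ) g,
        Cfsg.Agent.Helper7.isIrrCharacter_hom_mul f _ θ₁.2⟩, z, hzc, ?_, ?_⟩
      · have e : charDegree (fun g => ((f g : ℂˣ) : ℂ) * (θ₁ : G → ℂ) g) =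
            charDegree (θ₁ : G → ℂ) := by
          unfold charDegree
          show ⌊(((f 1 : ℂˣ) : ℂ) * (θ₁ : G → ℂ) 1).re⌋₊ = ⌊((θ₁ : G → ℂ) 1).re⌋₊
          rw [map_one, Units.val_one, one_mul]
        show charDegree (fun g => ((f g : ℂˣ) : ℂ) * (θ₁ : G → ℂ) g) ≠ 1
        rw [e]
        exact hθ₁
      · show ((f z : ℂˣ) : ℂ) * (θ₁ : G → ℂ) z ≠ ((f 1 : ℂˣ) : ℂ) * (θ₁ : G → ℂ) 1
        rw [h2, map_one, Units.val_one, one_mul]
        intro h3
        have h4 : (((f z : ℂˣ) : ℂ) - 1) * (θ₁ : G → ℂ) 1 = 0 := by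
          rw [sub_mul, one_mul, h3, sub_self]
        rcases mul_eq_zero.mp h4 with h5 | h5
        · exact hfz (sub_eq_zero.mp h5)
        · exact irr_one_ne_zero θ₁ h5
    · exact ⟨θ₁, z, hzc, hθ₁, h2⟩
  · exact ⟨θ₀, z, hzc, h1, hθ₀⟩

/-- A nonabelian normal `p`-subgroup `K` gives an irreducible character of degree divisible by
`p` which is nontrivial on `Z(K)`. -/
theorem dl_exists_char_center [Finite G] (p : ℕ) [Fact p.Prime] (K : Subgroup G) [K.Normal]
    (hK : IsPGroup p K) (hna : ¬ ∀ a ∈ K, ∀ b ∈ K, a * b = b * a) :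
    ∃ χ : IrrCharacter G, p ∣ charDegree (χ : G → ℂ) ∧
      ∃ x ∈ (Subgroup.center K).map K.subtype, (χ : G → ℂ) x ≠ (χ : G → ℂ) 1 := by
  classical
  letI := Fintype.ofFinite G
  letI : Fintype K := Fintype.ofFinite K
  have hna' : ¬ ∀ a b : K, a * b = b * a := by
    intro h
    apply hna
    intro a ha b hb
    exact congrArg Subtype.val (h ⟨a, ha⟩ ⟨b, hb⟩)
  obtain ⟨θ, z, hz, hθ1, hθz⟩ := dl_exists_nonlinear p hK hna'
  have hpθ : p ∣ charDegree (θ : K → ℂ) := by
    have h2 := irr_degree_dvd_card θ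
    obtain ⟨k, hk⟩ := hK.exists_card_eq
    rw [hk] at h2
    obtain ⟨j, -, hj⟩ := (Nat.dvd_prime_pow (Fact.out)).mp h2
    rcases Nat.eq_zero_or_pos j with h0 | h0
    · rw [hj, h0, pow_zero] at hθ1
      exact absurd rfl hθ1
    · rw [hj]
      exact dvd_pow_self p h0.ne'
  obtain ⟨χ, hχ⟩ := Cfsg.Agent.Helper24.exists_irr_over K θ
  refine ⟨χ, hpθ.trans (Cfsg.Agent.Helper24.clifford_degree K χ θ hχ), (z : G),
    Subgroup.mem_map.mpr ⟨z, hz, rfl⟩, ?_⟩
  intro h
  exact hθz (dl_ker_restrict K χ θ hχ z h)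

theorem dl_relIndex_dvd_index [Finite G] (T R : Subgroup G) [R.Normal] :
    T.relIndex R ∣ T.index := by
  have h1 : T.relIndex (R ⊔ T) * (R ⊔ T).index = T.index :=
    Subgroup.relIndex_mul_index le_sup_right
  have c1 : Nat.card ↥(R ⊔ T) = Nat.card T * T.relIndex (R ⊔ T) :=
    Cfsg.Agent.Helper10.card_eq_card_mul_relIndex le_sup_right
  have c2 : Nat.card ↥(R ⊔ T) = Nat.card R * R.relIndex (R ⊔ T) :=
    Cfsg.Agent.Helper10.card_eq_card_mul_relIndex le_sup_left
  have c3 : R.relIndex (R ⊔ T) = R.relIndex T := Subgroup.relIndex_sup_left T R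
  have c4 : Nat.card T = Nat.card ↥(R ⊓ T) * R.relIndex T := by
    have := Cfsg.Agent.Helper10.card_eq_card_mul_relIndex (inf_le_right : R ⊓ T ≤ T)
    rwa [Subgroup.inf_relIndex_right] at this
  have c5 : Nat.card R = Nat.card ↥(R ⊓ T) * T.relIndex R := by
    have := Cfsg.Agent.Helper10.card_eq_card_mul_relIndex (inf_le_left : R ⊓ T ≤ R)
    rwa [Subgroup.inf_relIndex_left] at this
  have h2 : Nat.card T * T.relIndex (R ⊔ T) = Nat.card T * T.relIndex R := by
    rw [← c1, c2, c3, c5, c4]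
    ring
  have h3 : T.relIndex (R ⊔ T) = T.relIndex R :=
    Nat.eq_of_mul_eq_mul_left Nat.card_pos h2
  rw [← h1, h3]
  exact Dvd.intro _ rfl

/-- If characters nontrivial on `L` all have `p'`-degree and `R/L` is a `p`-group, then `R`
fixes every irreducible character of `L`. -/
theorem dl_invariant [Finite G] (p : ℕ) [Fact p.Prime] (L R : Subgroup G) [hL : L.Normal]
    [R.Normal] (hRL : ∃ k : ℕ, L.relIndex R = p ^ k)
    (H0 : ∀ χ : IrrCharacter G, (∃ x ∈ L, (χ : G → ℂ) x ≠ (χ : G → ℂ) 1) →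
      ¬ p ∣ charDegree (χ : G → ℂ))
    (θ : IrrCharacter L) (r : G) (hr : r ∈ R) :
    Helper2.conjChar L (θ : L → ℂ) r = (θ : L → ℂ) := by
  classical
  letI := Fintype.ofFinite G
  letI : Fintype L := Fintype.ofFinite L
  obtain ⟨χ, hχ⟩ := Cfsg.Agent.Helper24.exists_irr_over L θ
  by_cases hx : ∃ x ∈ L, (χ : G → ℂ) x ≠ (χ : G → ℂ) 1
  · have hp := H0 χ hx
    obtain ⟨e, he⟩ := Helper2.classInner_char_nat
      (Helper2.isCharacter_restrict L (Helper2.isCharacter_of_isIrrCharacter χ.2))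
      (Helper2.isCharacter_of_isIrrCharacter θ.2)
    have he0 : e ≠ 0 := by
      rintro rfl
      exact hχ (by rw [he, Nat.cast_zero])
    have hdeg := Helper2.cliff_degree_stab L χ θ e he he0
    have hT : ¬ p ∣ (Helper2.stabChar L (θ : L → ℂ)).index := by
      intro h
      apply hp
      rw [hdeg]
      exact Dvd.dvd.mul_left h _
    have hLT : L ≤ Helper2.stabChar L (θ : L → ℂ) :=
      Helper2.le_stabChar L _ (Helper2.isClassFunction_of_isCharacter
        (Helper2.isCharacter_of_isIrrCharacter θ.2))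
    have h1 : (Helper2.stabChar L (θ : L → ℂ)).relIndex R ∣
        (Helper2.stabChar L (θ : L → ℂ)).index := dl_relIndex_dvd_index _ R
    have h2 : (Helper2.stabChar L (θ : L → ℂ)).relIndex R ∣ L.relIndex R :=
      Subgroup.relIndex_dvd_of_le_left R hLT
    obtain ⟨k, hk⟩ := hRL
    rw [hk] at h2
    obtain ⟨j, -, hj⟩ := (Nat.dvd_prime_pow Fact.out).mp h2
    have hj0 : j = 0 := by
      by_contra hj0
      exact hT ((hj ▸ dvd_pow_self p hj0).trans h1)
    rw [hj0, pow_zero] at hj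
    exact (Helper2.mem_stabChar L _ r).mp (Subgroup.relIndex_eq_one.mp hj hr)
  · push_neg at hx
    funext y
    rw [Helper2.conjChar_apply]
    have h1 := dl_ker_restrict L χ θ hχ ⟨r * y * r⁻¹, hL.conj_mem y y.2 r⟩
      (hx _ (hL.conj_mem y y.2 r))
    have h2 := dl_ker_restrict L χ θ hχ y (hx _ y.2)
    rw [h1, h2]

/-- An element fixing all irreducible characters of a normal subgroup `L` fixes all its
conjugacy classes. -/
theorem dl_class_stable [Finite G] (L : Subgroup G) [hL : L.Normal] (r : G)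
    (hr : ∀ θ : IrrCharacter L, Helper2.conjChar L (θ : L → ℂ) r = (θ : L → ℂ)) (x : L) :
    IsConj x (⟨r * x * r⁻¹, hL.conj_mem x x.2 r⟩ : L) := by
  classical
  letI : Fintype L := Fintype.ofFinite L
  obtain ⟨f, hfdef⟩ : ∃ f : L → ℂ, f = fun y => if IsConj x y then 1 else 0 := ⟨_, rfl⟩
  have hf : IsClassFunction L f := by
    intro g h
    have : IsConj x (h * g * h⁻¹) ↔ IsConj x g :=
      ⟨fun h1 => h1.trans (isConj_iff.mpr ⟨h⁻¹, by group⟩),
        fun h1 => h1.trans (isConj_iff.mpr ⟨h, rfl⟩)⟩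
    simp only [hfdef, this]
  have hdec := Helper2.classFun_eq_sum_classInner hf
  have e1 := congrFun hdec ⟨r * x * r⁻¹, hL.conj_mem x x.2 r⟩
  have e2 := congrFun hdec x
  simp only [Finset.sum_apply, Pi.smul_apply, smul_eq_mul] at e1 e2
  have h1 : f ⟨r * x * r⁻¹, hL.conj_mem x x.2 r⟩ = f x := by
    rw [e1, e2]
    apply Finset.sum_congr rfl
    intro θ _
    have := congrFun (hr θ) x
    rw [Helper2.conjChar_apply] at this
    rw [this]
  have h2 : f x = 1 := by rw [hfdef]; exact if_pos (IsConj.refl x)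
  rw [h2] at h1
  by_contra hc
  have h3 : f ⟨r * x * r⁻¹, hL.conj_mem x x.2 r⟩ = 0 := by rw [hfdef]; exact if_neg hc
  rw [h3] at h1
  exact zero_ne_one h1

/-- A `p`-subgroup stabilising all conjugacy classes of a normal `p'`-subgroup `L`
centralises `L`. -/
theorem dl_centralizes [Finite G] (p : ℕ) [Fact p.Prime] (L S : Subgroup G) [hL : L.Normal]
    (hLc : (Nat.card L).Coprime p) (hS : IsPGroup p S)
    (hst : ∀ s ∈ S, ∀ x : L, IsConj x (⟨s * x * s⁻¹, hL.conj_mem x x.2 s⟩ : L)) :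
    ∀ s ∈ S, ∀ l ∈ L, s * l = l * s := by
  classical
  have key : (Subgroup.centralizer (S : Set G)).subgroupOf L = ⊤ := by
    apply Cfsg.Agent.Helper22.eq_top_of_forall_conj_mem
    intro x
    letI : MulAction S {y : L // IsConj x y} :=
      { smul := fun s y => ⟨⟨(s : G) * y.1 * (s : G)⁻¹, hL.conj_mem y.1 y.1.2 s⟩,
          y.2.trans (hst s s.2 y.1)⟩
        one_smul := fun y => by
          apply Subtype.ext
          apply Subtype.ext
          show ((1 : S) : G) * (y.1 : G) * ((1 : S) : G)⁻¹ = (y.1 : G)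
          simp
        mul_smul := fun s t y => by
          apply Subtype.ext
          apply Subtype.ext
          show ((s * t : S) : G) * (y.1 : G) * ((s * t : S) : G)⁻¹ =
            (s : G) * ((t : G) * (y.1 : G) * (t : G)⁻¹) * (s : G)⁻¹
          rw [Subgroup.coe_mul]
          group }
    have hcard : ¬ p ∣ Nat.card {y : L // IsConj x y} := by
      have h1 : Nat.card {y : L // IsConj x y} = (ConjClasses.mk x).carrier.ncard := by
        rw [← Nat.card_coe_set_eq]
        apply Nat.card_congr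
        exact Equiv.subtypeEquivRight (fun y => by
          rw [ConjClasses.mem_carrier_iff_mk_eq, ConjClasses.mk_eq_mk_iff_isConj]
          exact ⟨IsConj.symm, IsConj.symm⟩)
      rw [h1, ← Cfsg.Agent.Helper22.index_centralizer_eq_ncard_carrier]
      intro hdvd
      have h2 := hdvd.trans (Subgroup.index_dvd_card _)
      exact (Nat.Prime.coprime_iff_not_dvd Fact.out).mp hLc.symm h2
    obtain ⟨y, hy⟩ := hS.nonempty_fixed_point_of_prime_not_dvd_card {y : L // IsConj x y} hcard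
    obtain ⟨c, hc⟩ := isConj_iff.mp y.2
    refine ⟨c⁻¹, ?_⟩
    rw [inv_inv, hc, Subgroup.mem_subgroupOf, Subgroup.mem_centralizer_iff]
    intro s hs
    have h1 := hy ⟨s, hs⟩
    have h2 : s * (y.1 : G) * s⁻¹ = (y.1 : G) :=
      congrArg (fun w : {y : L // IsConj x y} => ((w.1 : L) : G)) h1
    calc s * (y.1 : G) = s * (y.1 : G) * s⁻¹ * s := by group
      _ = (y.1 : G) * s := by rw [h2]
  intro s hs l hl
  have h1 : (⟨l, hl⟩ : L) ∈ (Subgroup.centralizer (S : Set G)).subgroupOf L := by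
    rw [key]; trivial
  rw [Subgroup.mem_subgroupOf, Subgroup.mem_centralizer_iff] at h1
  exact h1 s hs

theorem dl_pPrimeCore_normal (p : ℕ) (G : Type u) [Group G] : (pPrimeCore p G).Normal :=
  Subgroup.sSup_normal _ (fun _ hH => hH.1)

theorem dl_pCore_normal (p : ℕ) (G : Type u) [Group G] : (pCore p G).Normal :=
  Subgroup.sSup_normal _ (fun _ hH => hH.1)

/-- In a `p`-solvable group with `O_p(G) = 1` and order divisible by `p`, some irreducible
character of degree divisible by `p` is nontrivial on `O_{p'}(G)`. -/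
theorem dl_exists_char_pprime [Finite G] (p : ℕ) [Fact p.Prime] (hG : IsPSolvable p G)
    (hcore : pCore p G = ⊥) (hp : p ∣ Nat.card G) :
    ∃ χ : IrrCharacter G, p ∣ charDegree (χ : G → ℂ) ∧
      ∃ x ∈ pPrimeCore p G, (χ : G → ℂ) x ≠ (χ : G → ℂ) 1 := by
  classical
  by_contra H
  have H0 : ∀ χ : IrrCharacter G, (∃ x ∈ pPrimeCore p G, (χ : G → ℂ) x ≠ (χ : G → ℂ) 1) →
      ¬ p ∣ charDegree (χ : G → ℂ) := fun χ hx hd => H ⟨χ, hd, hx⟩
  haveI hLn : (pPrimeCore p G).Normal := dl_pPrimeCore_normal p G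
  have hLc := Cfsg.Agent.Helper10.pPrimeCore_coprime p G
  have hpq : p ∣ Nat.card (G ⧸ pPrimeCore p G) := by
    have h1 := Subgroup.card_eq_card_quotient_mul_card_subgroup (pPrimeCore p G)
    rw [h1] at hp
    exact Nat.Coprime.dvd_of_dvd_mul_right
      ((Nat.Prime.coprime_iff_not_dvd Fact.out).mpr
        ((Nat.Prime.coprime_iff_not_dvd Fact.out).mp hLc.symm)) hp
  haveI : Nontrivial (G ⧸ pPrimeCore p G) := by
    rw [← Finite.one_lt_card_iff_nontrivial]
    exact lt_of_lt_of_le (Fact.out : p.Prime).one_lt (Nat.le_of_dvd Nat.card_pos hpq)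
  have hU : pCore p (G ⧸ pPrimeCore p G) ≠ ⊥ := by
    rcases Cfsg.Agent.Helper13.core_ne_bot_of_isPSolvable
      (Cfsg.Agent.Helper13.isPSolvable_quotient hG (pPrimeCore p G)) with h | h
    · exact h
    · exact absurd (Cfsg.Agent.Helper10.pPrimeCore_quotient p G) h
  obtain ⟨R, hRdef⟩ : ∃ R : Subgroup G, R =
      (pCore p (G ⧸ pPrimeCore p G)).comap (QuotientGroup.mk' (pPrimeCore p G)) := ⟨_, rfl⟩
  haveI hUn : (pCore p (G ⧸ pPrimeCore p G)).Normal := dl_pCore_normal p _
  haveI hRn : R.Normal := hRdef ▸ hUn.comap _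
  have hrel : (pPrimeCore p G).relIndex R = Nat.card (pCore p (G ⧸ pPrimeCore p G)) := by
    have h1 := Subgroup.relIndex_comap (⊥ : Subgroup (G ⧸ pPrimeCore p G))
      (QuotientGroup.mk' (pPrimeCore p G)) R
    rw [MonoidHom.comap_bot, QuotientGroup.ker_mk', Subgroup.relIndex_bot_left] at h1
    rw [h1, hRdef, Subgroup.map_comap_eq_self_of_surjective (QuotientGroup.mk'_surjective _)]
  obtain ⟨k, hk⟩ := (Cfsg.Agent.Helper17.pCore_isPGroup p (G ⧸ pPrimeCore p G)).exists_card_eq
  have hRL : ∃ k : ℕ, (pPrimeCore p G).relIndex R = p ^ k := ⟨k, hrel.trans hk⟩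
  have hLR : pPrimeCore p G ≤ R := by
    rw [hRdef]
    intro x hx
    rw [Subgroup.mem_comap]
    have : QuotientGroup.mk' (pPrimeCore p G) x = 1 := (QuotientGroup.eq_one_iff x).mpr hx
    rw [this]
    exact Subgroup.one_mem _
  have hpR : p ∣ Nat.card R := by
    have h1 := Cfsg.Agent.Helper10.card_eq_card_mul_relIndex hLR
    rw [h1, hrel, hk]
    have hk0 : k ≠ 0 := by
      rintro rfl
      rw [pow_zero] at hk
      exact hU (Subgroup.card_eq_one.mp hk)
    exact Dvd.dvd.mul_left (dvd_pow_self p hk0) _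
  obtain ⟨S0⟩ : Nonempty (Sylow p R) := inferInstance
  have hSp : IsPGroup p ((S0 : Subgroup R).map R.subtype) := S0.isPGroup'.map _
  have hSR : (S0 : Subgroup R).map R.subtype ≤ R := Subgroup.map_subtype_le _
  have hst : ∀ s ∈ (S0 : Subgroup R).map R.subtype, ∀ x : pPrimeCore p G,
      IsConj x (⟨s * x * s⁻¹, hLn.conj_mem x x.2 s⟩ : pPrimeCore p G) :=
    fun s hs x => dl_class_stable (pPrimeCore p G) s
      (fun θ => dl_invariant p (pPrimeCore p G) R hRL H0 θ s (hSR hs)) x
  have hcent := dl_centralizes p (pPrimeCore p G) _ hLc hSp hst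
  have htop : ((pPrimeCore p G).subgroupOf R) ⊔ (S0 : Subgroup R) = ⊤ := by
    rw [← Subgroup.index_eq_one]
    have h1 : (((pPrimeCore p G).subgroupOf R) ⊔ (S0 : Subgroup R)).index ∣
        ((pPrimeCore p G).subgroupOf R).index := Subgroup.index_dvd_of_le le_sup_left
    have h2 : (((pPrimeCore p G).subgroupOf R) ⊔ (S0 : Subgroup R)).index ∣
        (S0 : Subgroup R).index := Subgroup.index_dvd_of_le le_sup_right
    have h3 : ((pPrimeCore p G).subgroupOf R).index = p ^ k := hrel.trans hk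
    rw [h3] at h1
    obtain ⟨j, -, hj⟩ := (Nat.dvd_prime_pow Fact.out).mp h1
    rcases Nat.eq_zero_or_pos j with h0 | h0
    · rw [hj, h0, pow_zero]
    · exact absurd ((hj ▸ dvd_pow_self p h0.ne').trans h2) (Sylow.not_dvd_index S0)
  haveI : ((pPrimeCore p G).subgroupOf R).Normal := Subgroup.normal_subgroupOf
  have hS0n : (S0 : Subgroup R).Normal := by
    constructor
    intro n hn g
    have hg : g ∈ ((((pPrimeCore p G).subgroupOf R) ⊔ (S0 : Subgroup R) : Subgroup R) :
        Set R) := by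
      rw [htop]; exact Subgroup.mem_top g
    rw [Subgroup.normal_mul] at hg
    obtain ⟨l, hl, s, hs, rfl⟩ := Set.mem_mul.mp hg
    have hsn : s * n * s⁻¹ ∈ (S0 : Subgroup R) :=
      (S0 : Subgroup R).mul_mem ((S0 : Subgroup R).mul_mem hs hn) ((S0 : Subgroup R).inv_mem hs)
    have hc : (s * n * s⁻¹) * l = l * (s * n * s⁻¹) := by
      apply Subtype.ext
      exact hcent _ (Subgroup.mem_map_of_mem _ hsn) _ (Subgroup.mem_subgroupOf.mp hl)
    have e : l * s * n * (l * s)⁻¹ = s * n * s⁻¹ := by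
      calc l * s * n * (l * s)⁻¹ = l * (s * n * s⁻¹) * l⁻¹ := by group
        _ = (s * n * s⁻¹) * l * l⁻¹ := by rw [hc]
        _ = s * n * s⁻¹ := by group
    rw [e]
    exact hsn
  haveI := Sylow.characteristic_of_normal S0 hS0n
  have hSn : ((S0 : Subgroup R).map R.subtype).Normal :=
    ConjAct.normal_of_characteristic_of_normal
  have hSle := Cfsg.Agent.Helper17.le_pCore hSn hSp
  rw [hcore] at hSle
  have hS0bot : (S0 : Subgroup R) = ⊥ :=
    (Subgroup.map_eq_bot_iff_of_injective _ R.subtype_injective).mp (le_bot_iff.mp hSle)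
  exact Sylow.ne_bot_of_dvd_card S0 hpR hS0bot

/-- Main induction. -/
theorem dl_main (p : ℕ) [Fact p.Prime] :
    ∀ (n : ℕ) (G : Type u) [Group G] [Finite G], Nat.card G = n → IsPSolvable p G →
      (∀ P : Subgroup G, IsPGroup p P → dlSer P (dlNum p G + 1) = ⊥) ∧
      (pCore p G = ⊥ → ∀ P : Subgroup G, IsPGroup p P → dlSer P (dlNum p G) = ⊥) := by
  intro n
  induction n using Nat.strong_induction_on with
  | _ n ih =>
  intro G _ _ hn hG
  have hquot : ∀ N : Subgroup G, N ≠ ⊥ → Nat.card (G ⧸ N) < n := by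
    intro N hN
    rw [← hn, Subgroup.card_eq_card_quotient_mul_card_subgroup N]
    have h1 : 1 < Nat.card N := by
      rw [Subgroup.one_lt_card_iff_ne_bot]; exact hN
    have h2 : 0 < Nat.card (G ⧸ N) := Nat.card_pos
    nlinarith
  have hB : pCore p G = ⊥ → ∀ P : Subgroup G, IsPGroup p P → dlSer P (dlNum p G) = ⊥ := by
    intro hcore P hP
    by_cases hpG : p ∣ Nat.card G
    · obtain ⟨χ, hχp, x, hx, hχx⟩ := dl_exists_char_pprime p hG hcore hpG
      haveI hLn : (pPrimeCore p G).Normal := dl_pPrimeCore_normal p G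
      have hL1 : pPrimeCore p G ≠ ⊥ := by
        intro h
        rw [h, Subgroup.mem_bot] at hx
        exact hχx (by rw [hx])
      have hA := (ih _ (hquot _ hL1) (G ⧸ pPrimeCore p G) rfl
        (Cfsg.Agent.Helper13.isPSolvable_quotient hG _)).1
        (P.map (QuotientGroup.mk' (pPrimeCore p G))) (hP.map _)
      have hnum := dlNum_quot_lt p (pPrimeCore p G) χ hχp x hx hχx
      have h1 : dlSer (P.map (QuotientGroup.mk' (pPrimeCore p G))) (dlNum p G) = ⊥ :=
        eq_bot_iff.mpr (hA ▸ dlSer_antitone _ hnum)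
      have h2 : dlSer P (dlNum p G) ≤ pPrimeCore p G := dlSer_le_of_map_eq_bot _ P _ h1
      have h3 : dlSer P (dlNum p G) ≤ P := dlSer_antitone P (Nat.zero_le _)
      rw [eq_bot_iff]
      intro y hy
      rw [Subgroup.mem_bot]
      obtain ⟨j, hj⟩ := hP ⟨y, h3 hy⟩
      have hj' : y ^ p ^ j = 1 := by
        have := congrArg Subtype.val hj
        simpa using this
      have ho1 : orderOf y ∣ p ^ j := orderOf_dvd_of_pow_eq_one hj'
      have ho2 : orderOf y ∣ Nat.card (pPrimeCore p G) := by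
        have := orderOf_dvd_natCard (⟨y, h2 hy⟩ : pPrimeCore p G)
        rwa [Subgroup.orderOf_mk] at this
      have hcop : (p ^ j).Coprime (Nat.card (pPrimeCore p G)) :=
        Nat.Coprime.pow_left j (Cfsg.Agent.Helper10.pPrimeCore_coprime p G).symm
      exact orderOf_eq_one_iff.mp (Nat.eq_one_of_dvd_coprimes hcop ho1 ho2)
    · have hP1 : P = ⊥ := by
        rw [Subgroup.eq_bot_iff_card]
        obtain ⟨j, hj⟩ := hP.exists_card_eq
        rcases Nat.eq_zero_or_pos j with h0 | h0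
        · rw [hj, h0, pow_zero]
        · exfalso
          apply hpG
          have h1 : Nat.card P ∣ Nat.card G := Subgroup.card_subgroup_dvd_card P
          rw [hj] at h1
          exact (dvd_pow_self p h0.ne').trans h1
      rw [hP1, dlSer_bot]
  refine ⟨?_, hB⟩
  intro P hP
  by_cases hK : pCore p G = ⊥
  · exact eq_bot_iff.mpr ((hB hK P hP) ▸ dlSer_succ_le P _)
  · haveI hKn : (pCore p G).Normal := dl_pCore_normal p G
    have hKp : IsPGroup p (pCore p G) := Cfsg.Agent.Helper17.pCore_isPGroup p G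
    by_cases hab : ∀ a ∈ pCore p G, ∀ b ∈ pCore p G, a * b = b * a
    · have hq : pCore p (G ⧸ pCore p G) = ⊥ := by
        rw [Cfsg.Agent.Helper17.pCore_quotient_eq_bot_iff]
        intro D hD hDp
        apply Cfsg.Agent.Helper17.le_pCore hD
        rintro ⟨d, hd⟩
        obtain ⟨k, hk⟩ := hDp d hd
        obtain ⟨j, hj⟩ := hKp ⟨_, hk⟩
        refine ⟨k + j, Subtype.ext ?_⟩
        have hj' : (d ^ p ^ k) ^ p ^ j = 1 := by
          have := congrArg Subtype.val hj
          simpa using this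
        show d ^ p ^ (k + j) = 1
        rw [pow_add, pow_mul]
        exact hj'
      have hBq := (ih _ (hquot _ hK) (G ⧸ pCore p G) rfl
        (Cfsg.Agent.Helper13.isPSolvable_quotient hG _)).2 hq
        (P.map (QuotientGroup.mk' (pCore p G))) (hP.map _)
      have hnum := dlNum_quot_le p (pCore p G)
      have h1 : dlSer (P.map (QuotientGroup.mk' (pCore p G))) (dlNum p G) = ⊥ :=
        eq_bot_iff.mpr (hBq ▸ dlSer_antitone _ hnum)
      exact dlSer_succ_eq_bot P (pCore p G) _ (dlSer_le_of_map_eq_bot _ P _ h1) hab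
    · obtain ⟨χ, hχp, x, hx, hχx⟩ := dl_exists_char_center p (pCore p G) hKp hab
      haveI : (Subgroup.center (pCore p G)).Characteristic := inferInstance
      haveI hZn : ((Subgroup.center (pCore p G)).map (pCore p G).subtype).Normal :=
        ConjAct.normal_of_characteristic_of_normal
      have hZ1 : (Subgroup.center (pCore p G)).map (pCore p G).subtype ≠ ⊥ := by
        intro h
        rw [h, Subgroup.mem_bot] at hx
        exact hχx (by rw [hx])
      have hZab : ∀ a ∈ (Subgroup.center (pCore p G)).map (pCore p G).subtype,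
          ∀ b ∈ (Subgroup.center (pCore p G)).map (pCore p G).subtype, a * b = b * a := by
        intro a ha b hb
        obtain ⟨a', ha', rfl⟩ := Subgroup.mem_map.mp ha
        obtain ⟨b', hb', rfl⟩ := Subgroup.mem_map.mp hb
        have := Subgroup.mem_center_iff.mp ha' b'
        exact (congrArg Subtype.val this).symm
      have hA := (ih _ (hquot _ hZ1)
        (G ⧸ (Subgroup.center (pCore p G)).map (pCore p G).subtype) rfl
        (Cfsg.Agent.Helper13.isPSolvable_quotient hG _)).1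
        (P.map (QuotientGroup.mk' _)) (hP.map _)
      have hnum := dlNum_quot_lt p ((Subgroup.center (pCore p G)).map (pCore p G).subtype)
        χ hχp x hx hχx
      have h1 : dlSer (P.map (QuotientGroup.mk'
          ((Subgroup.center (pCore p G)).map (pCore p G).subtype))) (dlNum p G) = ⊥ :=
        eq_bot_iff.mpr (hA ▸ dlSer_antitone _ hnum)
      exact dlSer_succ_eq_bot P _ _ (dlSer_le_of_map_eq_bot _ P _ h1) hZab

/-- **Theorem.** In a `p`-solvable group with `n` irreducible characters of degree divisible by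
`p`, a Sylow `p`-subgroup has derived length at most `n + 1`. -/
theorem dl_sylow {G : Type u} [Group G] [Finite G] (p : ℕ) [Fact p.Prime]
    (hG : IsPSolvable p G) (P : Sylow p G) :
    derivedSeries ↥(P : Subgroup G)
      (Nat.card {χ : IrrCharacter G // p ∣ charDegree (χ : G → ℂ)} + 1) = ⊥ := by
  have h1 := (dl_main p (Nat.card G) G rfl hG).1 (P : Subgroup G) P.isPGroup'
  rw [← dlSer_eq_map] at h1
  exact (Subgroup.map_eq_bot_iff_of_injective _ (P : Subgroup G).subtype_injective).mp h1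

end DerLen

end Cfsg.Agent.Helper25
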